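import Cfsg.Agent.H769.FocW
import Mathlib.GroupTheory.Focal

/-!
# A functor with the local focal condition controls transfer in every saturated fusion system (helper769)
-/

set_option autoImplicit false

namespace Cfsg.Agent.H769

open Cfsg Cfsg.FusionSystem Cfsg.Agent.H802 Cfsg.Agent.H771

open scoped commutatorElement

universe u

variable {Ω : Type u} [Group Ω] {S : Subgroup Ω}

/-- In a realized system, the focal subgroup maps into the derived subgroup. -/
theorem focal_le_commutator {F : FusionSystem S} {L : Type*} [Group L] {ι : ↥S →* L}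
    (hreal : F.IsRealizedBy ι) : F.focalSubgroup ≤ ((commutator L).comap ι).map S.subtype := by
  refine Cfsg.Agent.H747.focal_le fun P φ hφ x => ?_
  have hPS := hom_le hφ
  obtain ⟨g, hg⟩ := (hreal.2 P hPS φ (hom_apply_mem hφ)).1 hφ
  refine ⟨⟨x, hPS x.2⟩⁻¹ * ⟨φ x, hom_apply_mem hφ x⟩, ?_, rfl⟩
  show ι _ ∈ commutator L
  rw [map_mul, map_inv, hg x]
  have h1 : (ι ⟨x, hPS x.2⟩)⁻¹ * (g * ι ⟨x, hPS x.2⟩ * g⁻¹) = ⁅(ι ⟨x, hPS x.2⟩)⁻¹, g⁆ := by
    rw [commutatorElement_def]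
    group
  rw [h1]
  exact Subgroup.commutator_mem_commutator (Subgroup.mem_top _) (Subgroup.mem_top _)

/-- A realized system: conjugation by an element normalizing the image `V` of `Y ⊴ S`. -/
theorem mem_nfoc_of_conj [Finite S] {F : FusionSystem S} {L : Type*} [Group L] {ι : ↥S →* L}
    (hreal : F.IsRealizedBy ι) {Y : Subgroup Ω} (hY : Y ≤ S)
    (hYn : S ≤ Subgroup.normalizer (Y : Set Ω)) {u : L}
    (hu : ∀ (y : Ω) (hy : y ∈ Y), ∃ (y' : Ω) (hy' : y' ∈ Y),
      u * ι ⟨y, hY hy⟩ * u⁻¹ = ι ⟨y', hY hy'⟩) {s s' : S} (hs : u * ι s * u⁻¹ = ι s') :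
    (s : Ω)⁻¹ * s' ∈ nfoc F Y := by
  obtain ⟨hinj, hreal⟩ := hreal
  -- the largest subgroup of `S` conjugated into `S` by `u`
  let P₀ : Subgroup S := ι.range.comap ((MulAut.conj u).toMonoidHom.comp ι)
  let f₀ : P₀ →* ι.range := (((MulAut.conj u).toMonoidHom.comp ι).comp P₀.subtype).codRestrict _ (fun x => x.2)
  let P : Subgroup Ω := P₀.map S.subtype
  let e : P₀ ≃* P := P₀.equivMapOfInjective S.subtype S.subtype_injective
  let φ : P →* Ω := (S.subtype.comp ((MonoidHom.ofInjective hinj).symm.toMonoidHom)).comp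
    (f₀.comp e.symm.toMonoidHom)
  have hPS : P ≤ S := Subgroup.map_subtype_le _
  have hφS : ∀ x : P, φ x ∈ S := fun x => ((MonoidHom.ofInjective hinj).symm (f₀ (e.symm x))).2
  have he : ∀ x : P, ((e.symm x : P₀) : S) = ⟨x, hPS x.2⟩ := by
    intro x
    apply Subtype.ext
    have h1 : ((e (e.symm x) : P) : Ω) = (x : Ω) := by rw [MulEquiv.apply_symm_apply]
    exact h1
  have hφe : ∀ x : P, ι ⟨φ x, hφS x⟩ = u * ι ⟨x, hPS x.2⟩ * u⁻¹ := by
    intro x
    have h1 : (⟨φ x, hφS x⟩ : S) = (MonoidHom.ofInjective hinj).symm (f₀ (e.symm x)) := Subtype.ext rfl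
    have h2 := MonoidHom.apply_ofInjective_symm hinj (f₀ (e.symm x))
    rw [h1, h2]
    show u * ι ((e.symm x : P₀) : S) * u⁻¹ = _
    rw [he]
  have hφ : φ ∈ F.Hom P := (hreal P hPS φ hφS).2 ⟨u, hφe⟩
  have hYP : Y ≤ P := by
    intro y hy
    obtain ⟨y', hy', h1⟩ := hu y hy
    exact ⟨⟨y, hY hy⟩, ⟨⟨y', hY hy'⟩, h1.symm⟩, rfl⟩
  have hn : φ ∈ F.normalizerHom Y P := by
    refine mem_normalizerHom_of_mapsTo hY hYn hφ hYP (fun y hy => ?_)
    obtain ⟨y', hy', h1⟩ := hu y hy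
    have h2 := hφe ⟨y, hYP hy⟩
    have h3 : ι ⟨φ ⟨y, hYP hy⟩, hφS _⟩ = ι ⟨y', hY hy'⟩ := by rw [h2]; exact h1
    have h4 : φ ⟨y, hYP hy⟩ = y' := congrArg Subtype.val (hinj h3)
    rw [h4]
    exact hy'
  have hsP : (s : Ω) ∈ P := ⟨s, ⟨s', hs.symm⟩, rfl⟩
  have h5 := mem_nfoc hn ⟨s, hsP⟩
  have h6 : φ ⟨s, hsP⟩ = s' := by
    have h7 : ι ⟨φ ⟨s, hsP⟩, hφS _⟩ = ι s' := by
      rw [hφe, ← hs]
    exact congrArg Subtype.val (hinj h7)
  rw [h6] at h5
  exact h5

variable {p : ℕ} [Fact p.Prime] {W : ∀ (Q : Type u) [Group Q], Subgroup Q}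

/-- **The constrained case.** -/
theorem core_case_centric [Finite S] (hS : IsPGroup p S) {F : FusionSystem S} (hF : F.IsSaturated p)
    (hW2 : ∀ (Q R : Type u) [Group Q] [Group R] [Finite Q], IsPGroup p Q → ∀ φ : Q ≃* R,
      (W Q).map φ.toMonoidHom = W R)
    (hT : ∀ (G : Type u) [Group G] [Finite G] (P : Sylow p G),
      Subgroup.centralizer ((Cfsg.pCore p G : Subgroup G) : Set G) ≤ Cfsg.pCore p G →
      Cfsg.pCore p G ⊓ commutator G = Cfsg.pCore p G ⊓
        (commutator ↥(Subgroup.normalizer (((W ↥(P : Subgroup G)).map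
          (P : Subgroup G).subtype : Subgroup G) : Set G))).map
        (Subgroup.normalizer (((W ↥(P : Subgroup G)).map
          (P : Subgroup G).subtype : Subgroup G) : Set G)).subtype)
    {Q : Subgroup Ω} (hQ : F.IsNormal Q) (hQc : F.IsCentric Q) :
    Q ⊓ F.focalSubgroup ≤ nfoc F (WS W S) := by
  rintro q ⟨hqQ, hqF⟩
  obtain ⟨L, _, ι, hM, hnorm, hcen⟩ := exists_model hS hF hQ hQc
  obtain ⟨hfin, hreal, ⟨T, hTι⟩, hcenL⟩ := hM
  have key := hT L T hcenL
  set N : Subgroup L := Subgroup.normalizer (((W ↥(T : Subgroup L)).map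
          (T : Subgroup L).subtype : Subgroup L) : Set L) with hN
  have hinj := hreal.1
  have hQS := hQ.1
  have hTp : IsPGroup p (T : Subgroup L) := T.2
  have hTN : (T : Subgroup L) ≤ N :=
    Subgroup.le_normalizer.trans (le_normalizer_WS hW2 (T := (T : Subgroup L)) hTp)
  -- `W(T)` is the image of `W(S)`
  have hWT : (W S).map ι = WS W (T : Subgroup L) := map_W hW2 hS hinj hTι.symm
  -- `ι q` lies in `O_p(L) ∩ L'`
  have hq1 : ι ⟨q, hQS hqQ⟩ ∈ Cfsg.pCore p L := by
    refine Cfsg.Agent.Lib.Cores.le_pCore hnorm ?_ ⟨⟨q, hQS hqQ⟩, hqQ, rfl⟩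
    exact (hS.to_subgroup _).map ι
  have hq2 : ι ⟨q, hQS hqQ⟩ ∈ commutator L := by
    obtain ⟨z, hz, hzq⟩ := focal_le_commutator hreal hqF
    have h1 : z = ⟨q, hQS hqQ⟩ := Subtype.ext hzq
    rw [← h1]
    exact hz
  have hq3 : ι ⟨q, hQS hqQ⟩ ∈ Cfsg.pCore p L ⊓ commutator L := ⟨hq1, hq2⟩
  rw [key] at hq3
  obtain ⟨n, hn, hnq⟩ := hq3.2
  have hnq' : (n : L) = ι ⟨q, hQS hqQ⟩ := hnq
  have hιT : ∀ s : S, ι s ∈ (T : Subgroup L) := fun s => by rw [hTι]; exact ⟨s, rfl⟩
  -- the focal subgroup theorem in `N`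
  let T' : Sylow p N := T.subtype hTN
  have hnT : n ∈ _root_.commutator N ⊓ (T' : Subgroup N) := by
    refine ⟨hn, ?_⟩
    show (n : L) ∈ (T : Subgroup L)
    rw [hnq']
    exact hιT _
  rw [Subgroup.commutator_inf_eq_focalSubgroup T'] at hnT
  have hfoc : (T' : Subgroup N).focalSubgroup ≤
      (((nfoc F (WS W S)).comap S.subtype).map ι).comap N.subtype := by
    rw [Subgroup.focalSubgroup_def, Subgroup.closure_le]
    rintro g ⟨hgT, x, hxT, u, rfl⟩
    have hxT' : (x : L) ∈ ι.range := by rw [← hTι]; exact hxT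
    obtain ⟨s, hs⟩ := hxT'
    have hux : ((u : L) * (x : L)⁻¹ * (u : L)⁻¹) ∈ ι.range := by
      rw [← hTι]
      have h1 : ((⁅x, u⁆ : N) : L) ∈ (T : Subgroup L) := hgT
      have h2 : ((⁅x, u⁆ : N) : L) = (x : L) * ((u : L) * (x : L)⁻¹ * (u : L)⁻¹) := by
        rw [commutatorElement_def]
        push_cast
        group
      rw [h2] at h1
      have hxT'' : (x : L) ∈ (T : Subgroup L) := hxT
      have h3 := (T : Subgroup L).mul_mem ((T : Subgroup L).inv_mem hxT'') h1
      rwa [inv_mul_cancel_left] at h3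
    obtain ⟨s', hs'⟩ := hux
    have h1 : (u : L) * ι s⁻¹ * (u : L)⁻¹ = ι s' := by rw [map_inv, hs, hs']
    have h2 := mem_nfoc_of_conj hreal (Y := WS W S) (WS_le S)
      (Subgroup.le_normalizer.trans (le_normalizer_WS hW2 hS)) (u := (u : L)) (by
        intro y hy
        obtain ⟨w, hw, hwy⟩ := hy
        have h3 : ι w ∈ WS W (T : Subgroup L) := by rw [← hWT]; exact ⟨w, hw, rfl⟩
        have h4 := (Subgroup.mem_normalizer_iff.1 u.2 (ι w)).1 h3
        have h5 : (u : L) * ι w * (u : L)⁻¹ ∈ (W S).map ι := by rw [hWT]; exact h4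
        obtain ⟨w', hw', h6⟩ := h5
        refine ⟨w', ⟨w', hw', rfl⟩, ?_⟩
        have h7 : (⟨y, WS_le S ⟨w, hw, hwy⟩⟩ : S) = w := Subtype.ext hwy.symm
        rw [h7, ← h6]) h1
    refine ⟨s * s', ?_, ?_⟩
    · show ((s * s' : S) : Ω) ∈ nfoc F (WS W S)
      have h8 : ((s⁻¹ : S) : Ω)⁻¹ * (s' : Ω) = ((s * s' : S) : Ω) := by push_cast; group
      rw [h8] at h2
      exact h2
    · rw [map_mul, hs, hs']
      show _ = ((⁅x, u⁆ : N) : L)
      rw [commutatorElement_def]
      push_cast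
      group
  obtain ⟨z, hz, hzq⟩ := hfoc hnT
  have h9 : z = ⟨q, hQS hqQ⟩ := hinj (hzq.trans hnq)
  rw [h9] at hz
  exact hz

/-- **The non-centric case**: `Q` normal in `F`, and every map of `F` acts on `Q` as an element of `S`; then
`Q ∩ foc(F) ≤ [S, S]`. -/
theorem core_case_inner [Finite S] (hS : IsPGroup p S) {F : FusionSystem S} (hF : F.IsSaturated p)
    {Q : Subgroup Ω} (hQS : Q ≤ S)
    (hin : ∀ (P : Subgroup Ω) (φ : P →* Ω), φ ∈ F.Hom P → ∃ s ∈ S, ∀ x : P, (x : Ω) ∈ Q →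
      φ x = s * x * s⁻¹) :
    Q ⊓ F.focalSubgroup ≤ ⁅(S : Subgroup Ω), (S : Subgroup Ω)⁆ := by
  rintro q ⟨hqQ, hqF⟩
  obtain ⟨m, τ, hpm, hst, hval⟩ := Cfsg.Agent.H767.FusTransfer.exists_transfer hS hF
    (Abelianization.of : S →* Abelianization S)
  obtain ⟨z, hz, hzq⟩ := Cfsg.Agent.H767.FusTransfer.focal_le τ hst hqF
  have hz' : z = ⟨q, hQS hqQ⟩ := Subtype.ext hzq
  rw [hz'] at hz
  have h1 : τ ⟨q, hQS hqQ⟩ = 1 := hz
  have h2 := hval ⟨q, hQS hqQ⟩ (by
    intro y P φ hφ hy hyz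
    obtain ⟨s, hs, h3⟩ := hin P φ hφ
    have hyQ : (y : Ω) ∈ Q := by
      obtain ⟨n, rfl⟩ := Subgroup.mem_zpowers_iff.1 hyz
      exact Q.zpow_mem hqQ n
    have h4 := h3 ⟨y, hy⟩ hyQ
    have h5 : (⟨φ ⟨y, hy⟩, hom_apply_mem hφ _⟩ : S) = ⟨s, hs⟩ * y * ⟨s, hs⟩⁻¹ := Subtype.ext h4
    rw [h5, map_mul, map_mul, map_inv]
    rw [mul_comm (Abelianization.of (⟨s, hs⟩ : S)), mul_assoc, mul_inv_cancel, mul_one])
  rw [h1] at h2
  -- the abelianization is a `p`-group
  obtain ⟨k, hk⟩ := hS ⟨q, hQS hqQ⟩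
  have h3 : (Abelianization.of (⟨q, hQS hqQ⟩ : S)) ^ p ^ k = 1 := by
    rw [← map_pow, hk, map_one]
  have hp : p.Prime := Fact.out
  have h4 : (Abelianization.of (⟨q, hQS hqQ⟩ : S)) = 1 := by
    have h5 : orderOf (Abelianization.of (⟨q, hQS hqQ⟩ : S)) ∣ m := orderOf_dvd_of_pow_eq_one h2.symm
    have h6 : orderOf (Abelianization.of (⟨q, hQS hqQ⟩ : S)) ∣ p ^ k := orderOf_dvd_of_pow_eq_one h3
    have h7 : Nat.Coprime m (p ^ k) := by
      apply Nat.Coprime.pow_right
      exact ((Nat.Prime.coprime_iff_not_dvd hp).2 hpm).symm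
    have h8 := Nat.dvd_gcd h5 h6
    rw [h7.gcd_eq_one, Nat.dvd_one] at h8
    exact orderOf_eq_one_iff.1 h8
  have h5 : (⟨q, hQS hqQ⟩ : S) ∈ commutator S := by
    have h6 : (⟨q, hQS hqQ⟩ : S) ∈ (Abelianization.of (G := S)).ker := h4
    rwa [Abelianization.ker_of] at h6
  have h6 : (commutator S).map S.subtype = ⁅(S : Subgroup Ω), (S : Subgroup Ω)⁆ := by
    rw [commutator_def, Subgroup.map_commutator, ← MonoidHom.range_eq_map, Subgroup.range_subtype]
  rw [← h6]
  exact ⟨_, h5, rfl⟩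

/-- Induction step. -/
theorem step [Finite S] (hS : IsPGroup p S) {F : FusionSystem S} (hF : F.IsSaturated p)
    (hW1 : ∀ (Q : Type u) [Group Q] [Finite Q], IsPGroup p Q → Nontrivial Q → W Q ≠ ⊥)
    (hW2 : ∀ (Q R : Type u) [Group Q] [Group R] [Finite Q], IsPGroup p Q → ∀ φ : Q ≃* R,
      (W Q).map φ.toMonoidHom = W R)
    (hT : ∀ (G : Type u) [Group G] [Finite G] (P : Sylow p G),
      Subgroup.centralizer ((Cfsg.pCore p G : Subgroup G) : Set G) ≤ Cfsg.pCore p G →
      Cfsg.pCore p G ⊓ commutator G = Cfsg.pCore p G ⊓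
        (commutator ↥(Subgroup.normalizer (((W ↥(P : Subgroup G)).map
          (P : Subgroup G).subtype : Subgroup G) : Set G))).map
        (Subgroup.normalizer (((W ↥(P : Subgroup G)).map
          (P : Subgroup G).subtype : Subgroup G) : Set G)).subtype)
    (IH1 : ∀ (Ω' : Type u) [Group Ω'] (S' : Subgroup Ω') [Finite S'], IsPGroup p S' →
      Nat.card S' < Nat.card S → ∀ E : FusionSystem S', E.IsSaturated p →
        E.focalSubgroup ≤ nfoc E (WS W S'))
    (IH2 : ∀ E : FusionSystem S, E.IsSaturated p → (∀ P, E.Hom P ⊆ F.Hom P) →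
      (∃ (P : Subgroup Ω) (φ : P →* Ω), φ ∈ F.Hom P ∧ φ ∉ E.Hom P) →
        E.focalSubgroup ≤ nfoc E (WS W S)) :
    F.focalSubgroup ≤ nfoc F (WS W S) := by
  have hWn : S ≤ Subgroup.normalizer (WS W S : Set Ω) :=
    Subgroup.le_normalizer.trans (le_normalizer_WS hW2 hS)
  set H : Subgroup Ω := nfoc F (WS W S) with hH
  have hHF : H ≤ F.focalSubgroup := nfoc_le_focal F _
  have hHS : H ≤ S := hHF.trans (Cfsg.Agent.H747.focal_le_base F)
  have hcomm : ⁅(S : Subgroup Ω), (S : Subgroup Ω)⁆ ≤ H := commutator_le_nfoc (WS_le S) hWn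
  have IH2' : ∀ (S'' : Subgroup Ω) (_ : S'' = S) (E : FusionSystem S''), E.IsSaturated p →
      (∀ P, E.Hom P ⊆ F.Hom P) → (∃ (P : Subgroup Ω) (φ : P →* Ω), φ ∈ F.Hom P ∧ φ ∉ E.Hom P) →
      ∀ (P : Subgroup Ω) (φ : P →* Ω), φ ∈ E.Hom P → ∀ x : P, (x : Ω)⁻¹ * φ x ∈ H := by
    intro S'' h E hE hle hne P φ hφ x
    subst h
    exact nfoc_mono hle _ (IH2 E hE hle hne (Cfsg.Agent.H747.focal_mem hφ x))
  -- normalizer systems of subgroups that are not normal in `F`
  have hnorm : ∀ Y : Subgroup Ω, F.IsFullyNormalized Y → normalizerIn S Y = S → ¬ F.IsNormal Y →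
      ∀ (P : Subgroup Ω) (φ : P →* Ω), φ ∈ F.normalizerHom Y P → ∀ x : P, (x : Ω)⁻¹ * φ x ∈ H := by
    intro Y hYn hYS hY P φ hφ
    obtain ⟨E, hE⟩ := exists_normalizerSystem F hYn.1
    have hEs := normalizerSystem_isSaturated hS hF hYn hE
    refine IH2' _ hYS E hEs (fun P φ hφ => ?_) ?_ P φ (by rw [hE P]; exact hφ)
    · rw [hE P] at hφ
      exact hφ.1
    · by_contra hcon
      push Not at hcon
      refine hY (isNormal_of_normalizerHom hYn.1 (fun P φ hφ => ?_))
      have := hcon P φ hφ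
      rwa [hE P] at this
  by_cases hcore : F.core = ⊥
  · -- Case A
    refine focal_of_local hS hF (fun Y hY hYn => ⟨WS W (normalizerIn S Y), ?_, WS_le _, ?_, ?_, ?_⟩)
    · have hTS : normalizerIn S Y ≤ S := inf_le_left
      have hfin : Finite (normalizerIn S Y) := finite_of_le hTS
      refine WS_ne_bot hW1 (hS.to_le hTS) (fun h => hY ?_)
      rw [eq_bot_iff, ← h]
      exact Cfsg.Agent.H802.le_normalizerIn hYn.1
    · have hTS : normalizerIn S Y ≤ S := inf_le_left
      have hfin : Finite (normalizerIn S Y) := finite_of_le hTS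
      exact inf_le_right.trans (le_normalizer_WS hW2 (hS.to_le hTS))
    · intro hTeq
      refine hnorm Y hYn hTeq (fun h => hY ?_)
      rw [eq_bot_iff, ← hcore]
      exact Cfsg.Agent.H759.IsNormal.le_core h
    · intro hTne P φ hφ x
      have hTS : normalizerIn S Y ≤ S := inf_le_left
      have hfin : Finite (normalizerIn S Y) := finite_of_le hTS
      have hTp : IsPGroup p (normalizerIn S Y) := hS.to_le hTS
      obtain ⟨E, hE⟩ := exists_normalizerSystem F hYn.1
      have hEs := normalizerSystem_isSaturated hS hF hYn hE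
      have hlt : Nat.card (normalizerIn S Y) < Nat.card S :=
        lt_of_le_of_ne (Subgroup.card_le_of_le hTS)
          (fun h => hTne (Subgroup.eq_of_le_of_card_ge hTS h.ge))
      have h1 := IH1 Ω (normalizerIn S Y) hTp hlt E hEs
      have hφE : φ ∈ E.Hom P := by rw [hE P]; exact hφ
      have h2 := h1 (Cfsg.Agent.H747.focal_mem hφE x)
      refine nfoc_le ?_ h2
      rintro R ψ ⟨hψE, hRN, hψN, ψ', hψ', e1, e2⟩ y
      have hR' : R ⊔ WS W (normalizerIn S Y) ≤ normalizerIn S Y := hom_le hψ'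
      have hψ'F : ψ' ∈ F.Hom _ := by
        rw [hE] at hψ'
        exact hψ'.1
      refine Subgroup.subset_closure ⟨_, ψ', ⟨y, (le_sup_left : R ≤ _) y.2⟩, hψ'F, hR',
        fun z => hom_apply_mem hψ' z, le_sup_right, fun z hz => ?_, ?_⟩
      · exact (SetLike.ext_iff.1 e2 _).1 ⟨z, hz, rfl⟩
      · show (y : Ω)⁻¹ * ψ y = (y : Ω)⁻¹ * ψ' (Subgroup.inclusion le_sup_left y)
        rw [e1 y]
  · -- Case B
    set Q := F.core with hQdef
    have hQ : F.IsNormal Q := Cfsg.Agent.H759.isNormal_core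
    have hQS : Q ≤ S := hQ.1
    have hQn : S ≤ Subgroup.normalizer (Q : Set Ω) := le_normalizer_of_isNormal hQ
    have hsc := Cfsg.Agent.H759.IsNormal.stronglyClosed hQ
    have hQfin : Finite Q := finite_of_le hQS
    by_cases hWN : F.IsNormal (WS W S)
    · refine Cfsg.Agent.H747.focal_le fun P φ hφ x => ?_
      have hWfin : Finite (WS W S) := finite_of_le (WS_le S)
      refine mem_nfoc (mem_normalizerHom_iff.2 ⟨?_, ?_, nExt_of_isNormal hWN hφ⟩) x
      · exact le_inf (hom_le hφ) ((hom_le hφ).trans hWn)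
      · exact fun x => ⟨hom_apply_mem hφ x, hWn (hom_apply_mem hφ x)⟩
    have hQneS : Q ≠ S := by
      intro hQeq
      apply hWN
      have hWfin : Finite (WS W S) := finite_of_le (WS_le S)
      refine isNormal_of_nExt (WS_le S) (fun P φ hφ => ?_)
      obtain ⟨ψ, hψ, e1, e2⟩ := hQ.2 P φ hφ
      have hPS := hom_le hφ
      have hSle : S ≤ P ⊔ Q := by rw [hQeq]; exact le_sup_right
      have hle : P ⊔ WS W S ≤ P ⊔ Q := sup_le le_sup_left ((WS_le S).trans hSle)
      refine ⟨_, restrict_mem hψ hle, fun x hx hx' => e1 ⟨x, hx⟩, fun y hy hy' => ?_⟩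
      have hψS : ψ.comp (Subgroup.inclusion hSle) ∈ F.Hom S := restrict_mem hψ hSle
      have h1 := apply_mem_WS hW2 hS (F.injective_of_mem hψS)
        (range_eq_of_mapsTo hψS (fun x => hom_apply_mem hψS x)) hy (WS_le S hy)
      exact h1
    -- the quotient
    have hKn : (Q.subgroupOf S).Normal := Subgroup.normal_subgroupOf_of_le_normalizer hQn
    let θ : S →* (S ⧸ Q.subgroupOf S) := QuotientGroup.mk' (Q.subgroupOf S)
    have hker : ∀ s : S, θ s = 1 ↔ (s : Ω) ∈ Q := by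
      intro s
      show (QuotientGroup.mk' (Q.subgroupOf S)) s = 1 ↔ _
      rw [QuotientGroup.mk'_apply, QuotientGroup.eq_one_iff, Subgroup.mem_subgroupOf]
    have hr : θ.range = ⊤ := MonoidHom.range_eq_top.2 (QuotientGroup.mk'_surjective _)
    obtain ⟨E, hE⟩ := Cfsg.Agent.H759.exists_factorSystem hsc hker hr
    have hEs : E.IsSaturated p := Cfsg.Agent.H759.isSaturated_factor hS hF hsc hE
    have hqp : IsPGroup p (S ⧸ Q.subgroupOf S) := hS.to_quotient _
    have htp : IsPGroup p (⊤ : Subgroup (S ⧸ Q.subgroupOf S)) := hqp.to_subgroup _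
    have hcard : Nat.card (⊤ : Subgroup (S ⧸ Q.subgroupOf S)) < Nat.card S := by
      rw [Subgroup.card_top]
      have h1 := Subgroup.card_eq_card_quotient_mul_card_subgroup (Q.subgroupOf S)
      have h2 : 1 < Nat.card (Q.subgroupOf S) := by
        rw [Nat.card_congr (Subgroup.subgroupOfEquivOfLe hQS).toEquiv]
        have : Nontrivial Q := (Subgroup.nontrivial_iff_ne_bot Q).2 hcore
        exact Finite.one_lt_card
      rw [h1]
      exact lt_mul_of_one_lt_right Nat.card_pos h2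
    have h1 := IH1 _ (⊤ : Subgroup (S ⧸ Q.subgroupOf S)) htp hcard E hEs
    set V' : Subgroup (S ⧸ Q.subgroupOf S) := WS W ⊤ with hV'
    have hV'n : (⊤ : Subgroup (S ⧸ Q.subgroupOf S)) ≤ Subgroup.normalizer (V' : Set _) :=
      Subgroup.le_normalizer.trans (le_normalizer_WS hW2 htp)
    have hV'ne : V' ≠ ⊥ := by
      refine WS_ne_bot hW1 htp (fun h => hQneS ?_)
      refine le_antisymm hQS (fun s hs => ?_)
      have h3 : θ ⟨s, hs⟩ ∈ (⊤ : Subgroup (S ⧸ Q.subgroupOf S)) := Subgroup.mem_top _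
      rw [h, Subgroup.mem_bot] at h3
      exact (hker _).1 h3
    set L := preimageAlong θ V' with hL
    have hLS : L ≤ S := Cfsg.Agent.H759.preimageAlong_le
    have hQL : Q ≤ L := Cfsg.Agent.H759.le_preimageAlong hQS hker
    have hLn : S ≤ Subgroup.normalizer (L : Set Ω) := by
      have key : ∀ s ∈ S, ∀ l ∈ L, s * l * s⁻¹ ∈ L := by
        intro s hs l hl
        obtain ⟨hlS, hl'⟩ := Cfsg.Agent.H759.mem_preimageAlong.1 hl
        refine Cfsg.Agent.H759.mem_preimageAlong.2 ⟨S.mul_mem (S.mul_mem hs hlS) (S.inv_mem hs), ?_⟩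
        have h3 : (⟨s * l * s⁻¹, S.mul_mem (S.mul_mem hs hlS) (S.inv_mem hs)⟩ : S) =
          ⟨s, hs⟩ * ⟨l, hlS⟩ * ⟨s, hs⟩⁻¹ := Subtype.ext rfl
        rw [h3, map_mul, map_mul, map_inv]
        exact (Subgroup.mem_normalizer_iff.1 (hV'n (Subgroup.mem_top _)) _).1 hl'
      intro s hs
      rw [Subgroup.mem_normalizer_iff]
      intro l
      refine ⟨key s hs l, fun h => ?_⟩
      have h3 := key s⁻¹ (S.inv_mem hs) _ h
      have h4 : s⁻¹ * (s * l * s⁻¹) * s⁻¹⁻¹ = l := by group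
      rwa [h4] at h3
    have hLfn : F.IsFullyNormalized L := isFullyNormalized_of_le_normalizer hLS hLn
    have hLnn : ¬ F.IsNormal L := by
      intro h
      have h3 : L ≤ Q := Cfsg.Agent.H759.IsNormal.le_core h
      apply hV'ne
      rw [eq_bot_iff]
      intro v hv
      obtain ⟨s, rfl⟩ := QuotientGroup.mk'_surjective (Q.subgroupOf S) v
      have h4 : (s : Ω) ∈ L := Cfsg.Agent.H759.mem_preimageAlong.2 ⟨s.2, hv⟩
      exact (hker s).2 (h3 h4)
    have h2 : nfoc F L ≤ H := nfoc_le (hnorm L hLfn (inf_eq_left.2 hLn) hLnn)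
    have h3 : F.focalSubgroup ≤ H ⊔ Q := focal_le_sup_of_factor hQ hE hV'n h1 h2
    -- it suffices to show that `Q ∩ foc(F) ≤ H`
    suffices hsuff : Q ⊓ F.focalSubgroup ≤ H by
      intro z hz
      obtain ⟨h, hh, q, hq, rfl⟩ := (Cfsg.Agent.H759.mem_sup_of_normalizes (hHS.trans hQn)).1 (h3 hz)
      have h4 : q ∈ F.focalSubgroup := by
        have := F.focalSubgroup.mul_mem (F.focalSubgroup.inv_mem (hHF hh)) hz
        rwa [inv_mul_cancel_left] at this
      exact H.mul_mem hh (hsuff ⟨hq, h4⟩)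
    by_cases hQc : F.IsCentric Q
    · exact core_case_centric hS hF hW2 hT hQ hQc
    · -- `Q` is not centric
      have hCnle : ¬ centralizerIn S Q ≤ Q := by
        intro hC
        refine hQc ⟨hQS, fun R hR => ?_⟩
        obtain ⟨φ, hφ, hφR⟩ := hR
        have hRQ : R = Q := by
          rw [← hφR]
          refine range_eq_of_mapsTo hφ (fun x => ?_)
          exact Cfsg.Agent.H759.StronglyClosed.apply_mem hsc hφ (x := x) x.2
        rw [hRQ]
        exact hC
      set C := centralizerIn S Q with hCdef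
      have hCS : C ≤ S := inf_le_left
      have hCn : S ≤ Subgroup.normalizer (C : Set Ω) := le_normalizer_centralizerIn hQn
      have hQCS : Q ⊔ C ≤ S := sup_le hQS hCS
      have hQCn : S ≤ Subgroup.normalizer ((Q ⊔ C : Subgroup Ω) : Set Ω) := by
        have key : ∀ s ∈ S, ∀ x ∈ Q ⊔ C, s * x * s⁻¹ ∈ Q ⊔ C := by
          intro s hs x hx
          have h4 : Q ⊔ C ≤ (Q ⊔ C).comap (MulAut.conj s).toMonoidHom := by
            refine sup_le (fun y hy => ?_) (fun y hy => ?_)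
            · exact (le_sup_left : Q ≤ Q ⊔ C) ((Subgroup.mem_normalizer_iff.1 (hQn hs) y).1 hy)
            · exact (le_sup_right : C ≤ Q ⊔ C) ((Subgroup.mem_normalizer_iff.1 (hCn hs) y).1 hy)
          exact h4 hx
        intro s hs
        rw [Subgroup.mem_normalizer_iff]
        intro l
        refine ⟨key s hs l, fun h => ?_⟩
        have h3 := key s⁻¹ (S.inv_mem hs) _ h
        have h4 : s⁻¹ * (s * l * s⁻¹) * s⁻¹⁻¹ = l := by group
        rwa [h4] at h3
      have hQCnn : ¬ F.IsNormal (Q ⊔ C) := by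
        intro h
        exact hCnle (le_sup_right.trans (Cfsg.Agent.H759.IsNormal.le_core h))
      have hn2 := hnorm (Q ⊔ C) (isFullyNormalized_of_le_normalizer hQCS hQCn)
        (inf_eq_left.2 hQCn) hQCnn
      -- the system `S C_F(Q)`
      have hQfn : F.IsFullyNormalized Q := isFullyNormalized_of_le_normalizer hQS hQn
      have hgood : GoodK p F Q (autInducedBy S Q) :=
        goodK_of_le hS hF (isFullyCentralized_of_isFullyNormalized hS hF hQfn) le_rfl
      have hEs1 := kNormSystem_isSaturated hS hF hQS hgood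
      have hkS : kNorm S Q (autInducedBy S Q) = S := by
        refine le_antisymm (kNorm_le _ _ _) (fun s hs => ?_)
        obtain ⟨α, hα⟩ := exists_conjAut (hQn hs)
        exact ⟨hs, α, (mem_autInducedBy_iff S Q α).2 ⟨s, hs, hα⟩, hα⟩
      by_cases hprop : ∃ (P : Subgroup Ω) (φ : P →* Ω), φ ∈ F.Hom P ∧
          φ ∉ (kNormSystem F hQS (autInducedBy S Q)).Hom P
      · have hn1 := IH2' _ hkS _ hEs1 (fun P φ hφ => mem_of_mem_kNormHom hφ) hprop
        refine inf_le_right.trans (Cfsg.Agent.H747.focal_le ?_)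
        refine induction_core hS hF hQ (fun P φ => ∀ x : P, (x : Ω)⁻¹ * φ x ∈ H) ?_ ?_ ?_ ?_ ?_
        · intro P R φ χ _ hM hR he x
          rw [he x]
          exact hM ⟨x, hR x.2⟩
        · intro P R φ ψ χ _ _ hM hM' he x
          obtain ⟨h1, h2⟩ := he x
          rw [h2]
          have h3 : (x : Ω)⁻¹ * ψ ⟨φ x, h1⟩ = ((x : Ω)⁻¹ * φ x) * ((φ x)⁻¹ * ψ ⟨φ x, h1⟩) := by group
          rw [h3]
          exact H.mul_mem (hM x) (hM' ⟨φ x, h1⟩)
        · intro P R φ χ _ hM _ he y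
          obtain ⟨x, h1, h2⟩ := he y
          rw [h2, ← h1]
          have h3 : (φ x)⁻¹ * (x : Ω) = ((x : Ω)⁻¹ * φ x)⁻¹ := by group
          rw [h3]
          exact H.inv_mem (hM x)
        · intro R hRS hQR κ hκ hκQ
          have hκF := (mem_autGroup_iff F hRS κ).1 hκ
          refine hn1 R _ ?_
          refine ⟨by rw [hkS]; exact hRS, fun x => by rw [hkS]; exact hRS (κ x).2, ?_⟩
          have hle : R ⊔ Q ≤ R := sup_le le_rfl hQR
          exact ⟨_, restrict_mem hκF hle, fun x => rfl, 1, Subgroup.one_mem _, fun x => hκQ ⟨x, hQR x.2⟩ x.2⟩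
        · intro R hRS hQCR α hα
          have hαF := (mem_autGroup_iff F hRS α).1 hα
          refine hn2 R _ (mem_normalizerHom_of_mapsTo hQCS hQCn hαF hQCR ?_)
          have hle : Q ⊔ C ≤ (((Q ⊔ C).comap (R.subtype.comp α.toMonoidHom))).map R.subtype := by
            refine sup_le (fun y hy => ?_) (fun y hy => ?_)
            · have hyR : y ∈ R := hQCR ((le_sup_left : Q ≤ Q ⊔ C) hy)
              refine ⟨⟨y, hyR⟩, ?_, rfl⟩
              exact (le_sup_left : Q ≤ Q ⊔ C)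
                (Cfsg.Agent.H759.StronglyClosed.apply_mem hsc hαF (x := ⟨y, hyR⟩) hy)
            · have hyR : y ∈ R := hQCR ((le_sup_right : C ≤ Q ⊔ C) hy)
              refine ⟨⟨y, hyR⟩, ?_, rfl⟩
              refine (le_sup_right : C ≤ Q ⊔ C) ⟨hRS (α ⟨y, hyR⟩).2, ?_⟩
              refine Subgroup.mem_centralizer_iff.2 fun q hq => ?_
              have hQR : Q ≤ R := le_sup_left.trans hQCR
              obtain ⟨q', hq', h4⟩ := Cfsg.Agent.H759.StronglyClosed.exists_preimage hsc hαF hQR hq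
              have h5 : q' * y = y * q' := Subgroup.mem_centralizer_iff.1 hy.2 _ hq'
              have h6 : (⟨q', hQR hq'⟩ : R) * ⟨y, hyR⟩ = ⟨y, hyR⟩ * ⟨q', hQR hq'⟩ := Subtype.ext h5
              rw [← h4, ← map_mul, ← map_mul, h6]
          intro y hy
          obtain ⟨z, hz, hzy⟩ := hle hy
          have h4 : z = ⟨y, hQCR hy⟩ := Subtype.ext hzy
          rw [← h4]
          exact hz
      · push Not at hprop
        refine (core_case_inner hS hF hQS (fun P φ hφ => ?_)).trans hcomm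
        obtain ⟨-, -, ψ, hψ, e1, α, hα, e2⟩ := hprop P φ hφ
        obtain ⟨s, hs, hse⟩ := (mem_autInducedBy_iff S Q α).1 hα
        refine ⟨s, hs, fun x hx => ?_⟩
        have h4 := e1 x
        have h5 := e2 ⟨x, hx⟩
        have h6 : Subgroup.inclusion (le_sup_left : P ≤ P ⊔ Q) x =
          Subgroup.inclusion (le_sup_right : Q ≤ P ⊔ Q) ⟨x, hx⟩ := Subtype.ext rfl
        rw [h6, h5] at h4
        rw [← h4, hse]

/-- **A positive characteristic `p`-functor with the local focal condition controls transfer** in every saturated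
fusion system. -/
theorem focal_le_nfoc (hW1 : ∀ (Q : Type u) [Group Q] [Finite Q], IsPGroup p Q → Nontrivial Q → W Q ≠ ⊥)
    (hW2 : ∀ (Q R : Type u) [Group Q] [Group R] [Finite Q], IsPGroup p Q → ∀ φ : Q ≃* R,
      (W Q).map φ.toMonoidHom = W R)
    (hT : ∀ (G : Type u) [Group G] [Finite G] (P : Sylow p G),
      Subgroup.centralizer ((Cfsg.pCore p G : Subgroup G) : Set G) ≤ Cfsg.pCore p G →
      Cfsg.pCore p G ⊓ commutator G = Cfsg.pCore p G ⊓
        (commutator ↥(Subgroup.normalizer (((W ↥(P : Subgroup G)).map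
          (P : Subgroup G).subtype : Subgroup G) : Set G))).map
        (Subgroup.normalizer (((W ↥(P : Subgroup G)).map
          (P : Subgroup G).subtype : Subgroup G) : Set G)).subtype) :
    ∀ (n : ℕ) (Ω : Type u) [Group Ω] (S : Subgroup Ω) [Finite S], IsPGroup p S → Nat.card S = n →
      ∀ F : FusionSystem S, F.IsSaturated p → F.focalSubgroup ≤ nfoc F (WS W S) := by
  intro n
  induction n using Nat.strong_induction_on with
  | _ n ih =>
  intro Ω _ S _ hS hn
  have key : ∀ (m : ℕ) (F : FusionSystem S), mu F = m → F.IsSaturated p →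
      F.focalSubgroup ≤ nfoc F (WS W S) := by
    intro m
    induction m using Nat.strong_induction_on with
    | _ m ih2 =>
    intro F hm hF
    refine step hS hF hW1 hW2 hT ?_ ?_
    · intro Ω' _ S' _ hS' hlt E hE
      exact ih _ (hn ▸ hlt) Ω' S' hS' rfl E hE
    · rintro E hE hle ⟨P, φ, hφ, hφE⟩
      exact ih2 _ (hm ▸ mu_lt hle hφ hφE) E rfl hE
  exact fun F hF => key _ F rfl hF

end Cfsg.Agent.H769
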