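import Cfsg.Agent.H759.FusNormal
import Cfsg.Agent.H802.FusSat

/-!
# The factorization `F = ⟨S C_F(Q), N_F(Q C_S(Q))⟩` for a normal subgroup `Q` (helper769)
-/

set_option autoImplicit false

namespace Cfsg.Agent.H769

open Cfsg Cfsg.FusionSystem Cfsg.Agent.H802

variable {Ω : Type*} [Group Ω] {S : Subgroup Ω}

/-- **Induction principle for a normal subgroup `Q`.** Let `Q` be normal in the saturated system `F`.  A property of
maps closed under restriction, composition and inverses, which holds for the automorphisms of subgroups containing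
`Q` that are trivial on `Q` and for the automorphisms of subgroups containing `Q C_S(Q)`, holds for all maps. -/
theorem induction_core [Finite S] {p : ℕ} [Fact p.Prime] (hS : IsPGroup p S) {F : FusionSystem S}
    (hF : F.IsSaturated p) {Q : Subgroup Ω} (hQ : F.IsNormal Q) (M : ∀ P : Subgroup Ω, (P →* Ω) → Prop)
    (h_res : ∀ (P R : Subgroup Ω) (φ : P →* Ω) (χ : R →* Ω), φ ∈ F.Hom P → M P φ → ∀ h : R ≤ P,
      (∀ x : R, χ x = φ ⟨x, h x.2⟩) → M R χ)
    (h_comp : ∀ (P Q : Subgroup Ω) (φ : P →* Ω) (ψ : Q →* Ω) (χ : P →* Ω), φ ∈ F.Hom P → ψ ∈ F.Hom Q →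
      M P φ → M Q ψ → (∀ x : P, ∃ h : φ x ∈ Q, χ x = ψ ⟨φ x, h⟩) → M P χ)
    (h_inv : ∀ (P R : Subgroup Ω) (φ : P →* Ω) (χ : R →* Ω), φ ∈ F.Hom P → M P φ → χ ∈ F.Hom R →
      (∀ y : R, ∃ x : P, φ x = y ∧ χ y = x) → M R χ)
    (h_cent : ∀ (R : Subgroup Ω), R ≤ S → Q ≤ R → ∀ κ ∈ F.autGroup R,
      (∀ x : R, (x : Ω) ∈ Q → ((κ x : R) : Ω) = x) → M R (R.subtype.comp κ.toMonoidHom))
    (h_norm : ∀ (R : Subgroup Ω), R ≤ S → Q ⊔ centralizerIn S Q ≤ R → ∀ α ∈ F.autGroup R,
      M R (R.subtype.comp α.toMonoidHom)) :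
    ∀ (P : Subgroup Ω) (φ : P →* Ω), φ ∈ F.Hom P → M P φ := by
  have hQS := hQ.1
  have hQn : S ≤ Subgroup.normalizer (Q : Set Ω) :=
    Cfsg.Agent.H759.StronglyClosed.le_normalizer (Cfsg.Agent.H759.IsNormal.stronglyClosed hQ)
  have hsc := Cfsg.Agent.H759.IsNormal.stronglyClosed hQ
  refine Cfsg.Agent.H759.saturated_induction F hS hF M h_res h_comp h_inv ?_
  intro R hRa hRr IH α hα
  have hRS : R ≤ S := hRa.1
  have hRf : Finite R := finite_of_le hRS
  have hαF : R.subtype.comp α.toMonoidHom ∈ F.Hom R := (mem_autGroup_iff F hRS α).1 hα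
  by_cases hQR : Q ≤ R
  swap
  · -- `Q` not in `R`: extend
    obtain ⟨ψ, hψ, h1, -⟩ := hQ.2 R _ hαF
    have hle : R ≤ R ⊔ Q := le_sup_left
    have hfin : Finite (R ⊔ Q : Subgroup Ω) := finite_of_le (sup_le hRS hQS)
    have hlt : Nat.card R < Nat.card (R ⊔ Q : Subgroup Ω) := by
      refine lt_of_le_of_ne (Subgroup.card_le_of_le hle) (fun h => hQR ?_)
      rw [Subgroup.eq_of_le_of_card_ge hle h.ge]
      exact le_sup_right
    exact h_res _ _ ψ _ hψ (IH _ ψ hψ hlt) hle (fun x => (h1 x).symm)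
  · by_cases hCR : centralizerIn S Q ≤ R
    · exact h_norm R hRS (sup_le hQR hCR) α hα
    · -- the kernel on `Q`
      let K : Subgroup (MulAut R) :=
        { carrier := {κ | κ ∈ F.autGroup R ∧ ∀ x : R, (x : Ω) ∈ Q → ((κ x : R) : Ω) = x}
          one_mem' := ⟨Subgroup.one_mem _, fun x _ => rfl⟩
          mul_mem' := by
            rintro a b ⟨ha, ha'⟩ ⟨hb, hb'⟩
            refine ⟨Subgroup.mul_mem _ ha hb, fun x hx => ?_⟩
            have h1 : b x = x := Subtype.ext (hb' x hx)
            rw [MulAut.mul_apply, h1]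
            exact ha' x hx
          inv_mem' := by
            rintro a ⟨ha, ha'⟩
            refine ⟨Subgroup.inv_mem _ ha, fun x hx => ?_⟩
            have h1 : a x = x := Subtype.ext (ha' x hx)
            have h2 : a⁻¹ x = x := by
              conv_lhs => rw [← h1]
              exact a.symm_apply_apply x
            rw [h2] }
      have hKA : K ≤ F.autGroup R := fun κ hκ => hκ.1
      have hautQ : ∀ a ∈ F.autGroup R, ∀ x : R, (x : Ω) ∈ Q → ((a x : R) : Ω) ∈ Q := by
        intro a ha x hx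
        exact Cfsg.Agent.H759.StronglyClosed.apply_mem hsc ((mem_autGroup_iff F hRS a).1 ha) (x := x) hx
      have hK : ∀ a ∈ F.autGroup R, ∀ k ∈ K, a * k * a⁻¹ ∈ K := by
        rintro a ha k ⟨hk, hk'⟩
        refine ⟨Subgroup.mul_mem _ (Subgroup.mul_mem _ ha hk) (Subgroup.inv_mem _ ha), fun x hx => ?_⟩
        have h1 := hautQ a⁻¹ (Subgroup.inv_mem _ ha) x hx
        have h2 : k (a⁻¹ x) = a⁻¹ x := Subtype.ext (hk' _ h1)
        rw [MulAut.mul_apply, MulAut.mul_apply, h2, MulAut.apply_inv_self]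
      set N : Subgroup Ω := normalizerIn S R ⊓ centralizerIn S Q with hN
      have hr : (R.subtype.comp α.toMonoidHom).range = R := range_eq_of_mapsTo hαF (fun x => (α x).2)
      obtain ⟨k, hk, ψ, hψ, hψe⟩ := Cfsg.Agent.H759.exists_extension F hS hRa hRr hαF hr K hKA hK N
        (inf_le_left.trans inf_le_left) (inf_le_left.trans inf_le_right) (by
          intro g hg
          obtain ⟨c, hc⟩ := exists_conjAut hg.1.2
          have hcF : c ∈ F.autGroup R := by
            rw [mem_autGroup_iff F hRS]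
            exact mem_of_apply_eq (F.conj_mem hRS hg.1.1) hc
          have hcK : c ∈ K := by
            refine ⟨hcF, fun x hx => ?_⟩
            rw [hc]
            have := Subgroup.mem_centralizer_iff.1 hg.2.2 x hx
            rw [← this]
            group
          refine ⟨α * c * α⁻¹, hK α hα c hcK, 1, S.one_mem, Subgroup.one_mem _, fun x hx hy => ?_⟩
          have h1 : (⟨1 * (R.subtype.comp α.toMonoidHom) x * 1⁻¹, hy⟩ : R) = α x :=
            Subtype.ext (by simp)
          rw [h1, MulAut.mul_apply, MulAut.mul_apply]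
          have h2 : α⁻¹ (α x) = x := α.symm_apply_apply x
          rw [h2]
          have h3 : (⟨g * x * g⁻¹, hx⟩ : R) = c x := Subtype.ext (hc x).symm
          rw [h3]
          rfl)
      -- `N` is not contained in `R`
      have hCn : S ≤ Subgroup.normalizer (centralizerIn S Q : Set Ω) := by
        intro s hs
        rw [Subgroup.mem_normalizer_iff]
        have key : ∀ t ∈ S, ∀ z ∈ centralizerIn S Q, t * z * t⁻¹ ∈ centralizerIn S Q := by
          intro t ht z hz
          refine ⟨S.mul_mem (S.mul_mem ht hz.1) (S.inv_mem ht), ?_⟩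
          refine Subgroup.mem_centralizer_iff.2 fun q hq => ?_
          have h1 : t⁻¹ * q * t ∈ Q := by
            have := (Subgroup.mem_normalizer_iff.1 (hQn (S.inv_mem ht)) q).1 hq
            simpa using this
          have h2 := Subgroup.mem_centralizer_iff.1 hz.2 _ h1
          have h3 : q * (t * z * t⁻¹) = t * ((t⁻¹ * q * t) * z) * t⁻¹ := by group
          rw [h3, h2]
          group
        intro z
        refine ⟨key s hs z, fun h => ?_⟩
        have h1 := key s⁻¹ (S.inv_mem hs) _ h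
        have h2 : s⁻¹ * (s * z * s⁻¹) * s⁻¹⁻¹ = z := by group
        rwa [h2] at h1
      have hlt : R < R ⊔ centralizerIn S Q := lt_of_le_of_ne le_sup_left (fun h => hCR (h ▸ le_sup_right))
      obtain ⟨g, hg, hgR, hgn⟩ := Cfsg.Agent.H759.exists_mem_normalizer_not_mem hS
        (sup_le hRS inf_le_left) hlt
      obtain ⟨q, hq, c, hc, rfl⟩ := (Cfsg.Agent.H759.mem_sup_of_normalizes (hRS.trans hCn)).1 hg
      have hcR : c ∉ R := fun h => hgR (R.mul_mem hq h)
      have hcn : c ∈ Subgroup.normalizer (R : Set Ω) := by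
        have h2 := Subgroup.mul_mem _ (Subgroup.inv_mem _ (Subgroup.le_normalizer hq)) hgn
        simpa [← mul_assoc] using h2
      have hcN : c ∈ N := ⟨⟨hc.1, hcn⟩, hc⟩
      have hfin : Finite (R ⊔ N : Subgroup Ω) := finite_of_le (hom_le hψ)
      have hcard : Nat.card R < Nat.card (R ⊔ N : Subgroup Ω) := by
        refine lt_of_le_of_ne (Subgroup.card_le_of_le le_sup_left) (fun h => hcR ?_)
        rw [Subgroup.eq_of_le_of_card_ge le_sup_left h.ge]
        exact (le_sup_right : N ≤ R ⊔ N) hcN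
      have hMψ := IH _ ψ hψ hcard
      -- the restriction of `ψ` to `R` is `k α`
      have hkα : k * α ∈ F.autGroup R := Subgroup.mul_mem _ hk.1 hα
      have hMkα : M R (R.subtype.comp (k * α).toMonoidHom) := by
        refine h_res _ _ ψ _ hψ hMψ le_sup_left (fun x => ?_)
        have h1 := hψe x (α x).2 ((le_sup_left : R ≤ R ⊔ N) x.2)
        rw [h1]
        rfl
      have hki : k⁻¹ ∈ K := K.inv_mem hk
      have hMk : M R (R.subtype.comp (k⁻¹).toMonoidHom) := h_cent R hRS hQR k⁻¹ hki.1 hki.2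
      refine h_comp R R _ _ _ ((mem_autGroup_iff F hRS _).1 hkα) ((mem_autGroup_iff F hRS _).1 hki.1)
        hMkα hMk (fun x => ⟨((k * α) x).2, ?_⟩)
      show ((α x : R) : Ω) = ((k⁻¹ (k (α x)) : R) : Ω)
      have h5 : k⁻¹ (k (α x)) = α x := k.symm_apply_apply _
      rw [h5]

end Cfsg.Agent.H769
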