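import Cfsg.Agent.H769.FocLocal
import Cfsg.Agent.H769.FusCore
import Cfsg.Agent.H802.FusKSat
import Cfsg.Agent.H767.FusTransfer
import Cfsg.Agent.H759.FusFactor

/-!
# Functors controlling transfer in fusion systems (helper769)

`W` a positive characteristic `p`-functor: `WS W T` is `W(T)` inside the ambient group.
-/

set_option autoImplicit false

namespace Cfsg.Agent.H769

open Cfsg Cfsg.FusionSystem Cfsg.Agent.H802 Cfsg.Agent.H771

open scoped commutatorElement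

universe u

section functor

variable (W : ∀ (Q : Type u) [Group Q], Subgroup Q)

/-- `W(T)` inside the ambient group. -/
def WS {Ω : Type u} [Group Ω] (T : Subgroup Ω) : Subgroup Ω := (W ↥T).map T.subtype

variable {W}

theorem WS_le {Ω : Type u} [Group Ω] (T : Subgroup Ω) : WS W T ≤ T := Subgroup.map_subtype_le _

theorem WS_ne_bot {p : ℕ}
    (hW1 : ∀ (Q : Type u) [Group Q] [Finite Q], IsPGroup p Q → Nontrivial Q → W Q ≠ ⊥)
    {Ω : Type u} [Group Ω] {T : Subgroup Ω} [Finite T] (hT : IsPGroup p T) (hne : T ≠ ⊥) :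
    WS W T ≠ ⊥ := by
  intro h
  have hn : Nontrivial T := (Subgroup.nontrivial_iff_ne_bot T).2 hne
  refine hW1 T hT hn ?_
  rw [WS, Subgroup.map_eq_bot_iff_of_injective _ T.subtype_injective] at h
  exact h

/-- Naturality: an injective homomorphism from `T` carries `W(T)` onto `W` of its range. -/
theorem map_W {p : ℕ}
    (hW2 : ∀ (Q R : Type u) [Group Q] [Group R] [Finite Q], IsPGroup p Q → ∀ φ : Q ≃* R,
      (W Q).map φ.toMonoidHom = W R)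
    {T L : Type u} [Group T] [Group L] [Finite T] (hT : IsPGroup p T) {f : T →* L}
    (hf : Function.Injective f) {T' : Subgroup L} (h : f.range = T') : (W T).map f = WS W T' := by
  subst h
  have h1 := hW2 T f.range hT (MonoidHom.ofInjective hf)
  rw [WS, ← h1, Subgroup.map_map]
  rfl

theorem apply_mem_WS {p : ℕ}
    (hW2 : ∀ (Q R : Type u) [Group Q] [Group R] [Finite Q], IsPGroup p Q → ∀ φ : Q ≃* R,
      (W Q).map φ.toMonoidHom = W R)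
    {Ω : Type u} [Group Ω] {T : Subgroup Ω} [Finite T] (hT : IsPGroup p T) {f : T →* Ω}
    (hf : Function.Injective f) (h : f.range = T) {x : Ω} (hx : x ∈ WS W T) (hx' : x ∈ T) :
    f ⟨x, hx'⟩ ∈ WS W T := by
  rw [← map_W hW2 hT hf h]
  obtain ⟨y, hy, hyx⟩ := hx
  refine ⟨y, hy, ?_⟩
  congr 1
  exact Subtype.ext hyx

theorem le_normalizer_WS {p : ℕ}
    (hW2 : ∀ (Q R : Type u) [Group Q] [Group R] [Finite Q], IsPGroup p Q → ∀ φ : Q ≃* R,
      (W Q).map φ.toMonoidHom = W R)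
    {Ω : Type u} [Group Ω] {T : Subgroup Ω} [Finite T] (hT : IsPGroup p T) :
    Subgroup.normalizer (T : Set Ω) ≤ Subgroup.normalizer (WS W T : Set Ω) := by
  have key : ∀ g ∈ Subgroup.normalizer (T : Set Ω), ∀ x ∈ WS W T, g * x * g⁻¹ ∈ WS W T := by
    intro g hg x hx
    obtain ⟨α, hα⟩ := exists_conjAut hg
    have hr : (T.subtype.comp α.toMonoidHom).range = T := by
      ext z
      constructor
      · rintro ⟨y, rfl⟩
        exact (α y).2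
      · intro hz
        exact ⟨α.symm ⟨z, hz⟩, by
          show ((α (α.symm ⟨z, hz⟩) : T) : Ω) = z
          rw [MulEquiv.apply_symm_apply]⟩
    have h1 := apply_mem_WS hW2 hT (f := T.subtype.comp α.toMonoidHom)
      (T.subtype_injective.comp α.injective) hr hx (WS_le T hx)
    have h2 : (T.subtype.comp α.toMonoidHom) ⟨x, WS_le T hx⟩ = g * x * g⁻¹ := hα _
    rwa [h2] at h1
  intro g hg
  rw [Subgroup.mem_normalizer_iff]
  intro x
  refine ⟨key g hg x, fun h => ?_⟩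
  have h1 := key g⁻¹ (Subgroup.inv_mem _ hg) _ h
  have h2 : g⁻¹ * (g * x * g⁻¹) * g⁻¹⁻¹ = x := by group
  rwa [h2] at h1

end functor

variable {Ω : Type u} [Group Ω] {S : Subgroup Ω}

/-- A subgroup all maps normalize is normal. -/
theorem isNormal_of_normalizerHom {F : FusionSystem S} {Y : Subgroup Ω} (hY : Y ≤ S)
    (h : ∀ (P : Subgroup Ω) (φ : P →* Ω), φ ∈ F.Hom P → φ ∈ F.normalizerHom Y P) : F.IsNormal Y := by
  refine ⟨hY, fun P φ hφ => ?_⟩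
  obtain ⟨-, -, -, ψ, hψ, h1, h2⟩ := h P φ hφ
  exact ⟨ψ, hψ, h1, h2⟩

theorem le_normalizer_centralizerIn {Q : Subgroup Ω} (hQ : S ≤ Subgroup.normalizer (Q : Set Ω)) :
    S ≤ Subgroup.normalizer (centralizerIn S Q : Set Ω) := by
  intro s hs
  rw [Subgroup.mem_normalizer_iff]
  have key : ∀ t ∈ S, ∀ z ∈ centralizerIn S Q, t * z * t⁻¹ ∈ centralizerIn S Q := by
    intro t ht z hz
    refine ⟨S.mul_mem (S.mul_mem ht hz.1) (S.inv_mem ht), ?_⟩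
    refine Subgroup.mem_centralizer_iff.2 fun q hq => ?_
    have h1 : t⁻¹ * q * t ∈ Q := by
      have := (Subgroup.mem_normalizer_iff.1 (hQ (S.inv_mem ht)) q).1 hq
      simpa using this
    have h2 := Subgroup.mem_centralizer_iff.1 hz.2 _ h1
    have h3 : q * (t * z * t⁻¹) = t * ((t⁻¹ * q * t) * z) * t⁻¹ := by group
    rw [h3, h2]
    group
  intro z
  refine ⟨key s hs z, fun h => ?_⟩
  have h1 := key s⁻¹ (S.inv_mem hs) _ h
  have h2 : s⁻¹ * (s * z * s⁻¹) * s⁻¹⁻¹ = z := by group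
  rwa [h2] at h1

/-- A map of `F` whose source contains `Y ⊴ S` and which maps `Y` into `Y` belongs to `N_F(Y)`. -/
theorem mem_normalizerHom_of_mapsTo [Finite S] {F : FusionSystem S} {Y : Subgroup Ω} (hY : Y ≤ S)
    (hYn : S ≤ Subgroup.normalizer (Y : Set Ω)) {P : Subgroup Ω} {φ : P →* Ω} (hφ : φ ∈ F.Hom P)
    (hYP : Y ≤ P) (h : ∀ (y : Ω) (hy : y ∈ Y), φ ⟨y, hYP hy⟩ ∈ Y) : φ ∈ F.normalizerHom Y P := by
  have hfin : Finite Y := finite_of_le hY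
  rw [mem_normalizerHom_iff]
  refine ⟨le_inf (hom_le hφ) ((hom_le hφ).trans hYn), fun x => ⟨hom_apply_mem hφ x, hYn (hom_apply_mem hφ x)⟩, ?_⟩
  have hle : P ⊔ Y ≤ P := sup_le le_rfl hYP
  exact ⟨_, restrict_mem hφ hle, fun x hx hx' => rfl, fun y hy hy' => h y hy⟩

theorem commutator_le_nfoc [Finite S] {F : FusionSystem S} {Y : Subgroup Ω} (hY : Y ≤ S)
    (hYn : S ≤ Subgroup.normalizer (Y : Set Ω)) :
    ⁅(S : Subgroup Ω), (S : Subgroup Ω)⁆ ≤ nfoc F Y := by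
  rw [Subgroup.commutator_le]
  intro a ha b hb
  have h1 : conjHom S b ∈ F.normalizerHom Y S :=
    mem_normalizerHom_of_mapsTo hY hYn (F.conj_mem le_rfl hb) hY
      (fun y hy => (Subgroup.mem_normalizer_iff.1 (hYn hb) y).1 hy)
  have h := mem_nfoc h1 ⟨a⁻¹, S.inv_mem ha⟩
  have h2 : ((⟨a⁻¹, S.inv_mem ha⟩ : S) : Ω)⁻¹ * conjHom S b ⟨a⁻¹, S.inv_mem ha⟩ = ⁅a, b⁆ := by
    show a⁻¹⁻¹ * (b * a⁻¹ * b⁻¹) = a * b * a⁻¹ * b⁻¹
    group
  rwa [h2] at h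

/-! ### The quotient step -/

/-- **Quotient step**: if the focal subgroup of `F/Q` lies in `nfoc (F/Q) V'` and the focal subgroup of
`N_F(L)`, `L` the preimage of `V'`, lies in `H`, then `foc(F) ≤ H Q`. -/
theorem focal_le_sup_of_factor [Finite S] {F : FusionSystem S} {Q : Subgroup Ω}
    (hQ : F.IsNormal Q) {Ω' : Type u} [Group Ω'] {S' : Subgroup Ω'} {θ : S →* Ω'}
    {E : FusionSystem S'} (hE : F.IsFactorSystem Q θ E) {V' : Subgroup Ω'}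
    (hV'n : S' ≤ Subgroup.normalizer (V' : Set Ω'))
    (h1 : E.focalSubgroup ≤ nfoc E V') {H : Subgroup Ω}
    (h2 : nfoc F (preimageAlong θ V') ≤ H) : F.focalSubgroup ≤ H ⊔ Q := by
  have hQS := hQ.1
  have hsc := Cfsg.Agent.H759.IsNormal.stronglyClosed hQ
  set L := preimageAlong θ V' with hL
  have hLS : L ≤ S := Cfsg.Agent.H759.preimageAlong_le
  have hθS : ∀ s : S, θ s ∈ S' := fun s => by rw [← hE.2.2.1]; exact ⟨s, rfl⟩
  have hLn : S ≤ Subgroup.normalizer (L : Set Ω) := by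
    have key : ∀ s ∈ S, ∀ l ∈ L, s * l * s⁻¹ ∈ L := by
      intro s hs l hl
      obtain ⟨hlS, hl'⟩ := Cfsg.Agent.H759.mem_preimageAlong.1 hl
      refine Cfsg.Agent.H759.mem_preimageAlong.2 ⟨S.mul_mem (S.mul_mem hs hlS) (S.inv_mem hs), ?_⟩
      have h3 : (⟨s * l * s⁻¹, S.mul_mem (S.mul_mem hs hlS) (S.inv_mem hs)⟩ : S) =
        ⟨s, hs⟩ * ⟨l, hlS⟩ * ⟨s, hs⟩⁻¹ := Subtype.ext rfl
      rw [h3, map_mul, map_mul, map_inv]
      exact (Subgroup.mem_normalizer_iff.1 (hV'n (hθS _)) _).1 hl'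
    intro s hs
    rw [Subgroup.mem_normalizer_iff]
    intro l
    refine ⟨key s hs l, fun h => ?_⟩
    have h3 := key s⁻¹ (S.inv_mem hs) _ h
    have h4 : s⁻¹ * (s * l * s⁻¹) * s⁻¹⁻¹ = l := by group
    rwa [h4] at h3
  -- the focal subgroup of the factor system is the image of something in `H`
  have hnf : nfoc E V' ≤ imageAlong θ H := by
    refine nfoc_le fun R' ψ hψ y => ?_
    obtain ⟨hψE, hR'N, hψN, ψ', hψ', e1, e2⟩ := hψ
    obtain ⟨φ, hφ, hφe⟩ := Cfsg.Agent.H759.exists_map_of_factor hE hψ'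
    have hR'V' : R' ⊔ V' ≤ S' := hom_le hψ'
    have hLP : L ≤ preimageAlong θ (R' ⊔ V') := Cfsg.Agent.H759.preimageAlong_mono le_sup_right
    have hφn : φ ∈ F.normalizerHom L (preimageAlong θ (R' ⊔ V')) := by
      refine mem_normalizerHom_of_mapsTo hLS hLn hφ hLP (fun l hl => ?_)
      obtain ⟨hlS, hl'⟩ := Cfsg.Agent.H759.mem_preimageAlong.1 hl
      have hlV : θ ⟨l, hlS⟩ ∈ R' ⊔ V' := (le_sup_right : V' ≤ R' ⊔ V') hl'
      have h3 := hφe l (hLP hl) hlS hlV (hom_apply_mem hφ _)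
      refine Cfsg.Agent.H759.mem_preimageAlong.2 ⟨hom_apply_mem hφ _, ?_⟩
      rw [← h3]
      exact (SetLike.ext_iff.1 e2 _).1 ⟨⟨θ ⟨l, hlS⟩, hlV⟩, hl', rfl⟩
    have hyS' : (y : Ω') ∈ S' := hom_le hψE y.2
    obtain ⟨r, hrS, hrP, hry⟩ := Cfsg.Agent.H759.exists_preimage_of_mem hE hR'V'
      ((le_sup_left : R' ≤ R' ⊔ V') y.2)
    have h3 := mem_nfoc hφn ⟨r, hrP⟩
    have hyV : θ ⟨r, hrS⟩ ∈ R' ⊔ V' := by rw [hry]; exact (le_sup_left : R' ≤ R' ⊔ V') y.2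
    have h4 := hφe r hrP hrS hyV (hom_apply_mem hφ _)
    have h5 : ψ y = θ ⟨φ ⟨r, hrP⟩, hom_apply_mem hφ _⟩ := by
      rw [← h4, ← e1 y]
      congr 1
      exact Subtype.ext hry.symm
    have hrφ : (r : Ω)⁻¹ * φ ⟨r, hrP⟩ ∈ S := S.mul_mem (S.inv_mem hrS) (hom_apply_mem hφ _)
    refine Cfsg.Agent.H759.mem_imageAlong.2 ⟨_, hrφ, h2 h3, ?_⟩
    have h6 : (⟨r⁻¹ * φ ⟨r, hrP⟩, hrφ⟩ : S) = ⟨r, hrS⟩⁻¹ * ⟨φ ⟨r, hrP⟩, hom_apply_mem hφ _⟩ :=
      Subtype.ext rfl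
    rw [h6, map_mul, map_inv, hry, h5]
  refine Cfsg.Agent.H747.focal_le fun P φ hφ x => ?_
  have hPS : P ≤ S := hom_le hφ
  obtain ⟨ψ, hψ, e1, e2⟩ := hQ.2 P φ hφ
  have hP'S : imageAlong θ P ≤ S' := by rw [← hE.2.2.1]; exact Cfsg.Agent.H759.imageAlong_le_range
  have hpre : preimageAlong θ (imageAlong θ P) ≤ P ⊔ Q := by
    intro y hy
    obtain ⟨hyS, hy'⟩ := Cfsg.Agent.H759.mem_preimageAlong.1 hy
    obtain ⟨r, hr, hrP, hry⟩ := Cfsg.Agent.H759.mem_imageAlong.1 hy'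
    have h1 := (Cfsg.Agent.H759.theta_eq_iff hE).1 hry
    have h2 : y = r * (r⁻¹ * y) := by group
    rw [h2]
    exact (P ⊔ Q).mul_mem ((le_sup_left : P ≤ P ⊔ Q) hrP) ((le_sup_right : Q ≤ P ⊔ Q) h1)
  obtain ⟨φ', hφ', hφe⟩ := Cfsg.Agent.H759.exists_factor_map hsc hE hψ hP'S hpre
  have hxS : (x : Ω) ∈ S := hPS x.2
  have hxP' : θ ⟨x, hxS⟩ ∈ imageAlong θ P := Cfsg.Agent.H759.mem_imageAlong.2 ⟨x, hxS, x.2, rfl⟩
  have hxPQ : (x : Ω) ∈ P ⊔ Q := (le_sup_left : P ≤ P ⊔ Q) x.2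
  have h3 := hφe x hxPQ hxS hxP' (hom_apply_mem hψ _)
  have h4 : ψ ⟨x, hxPQ⟩ = φ x := e1 x
  have h5 := (h1.trans hnf) (Cfsg.Agent.H747.focal_mem hφ' ⟨_, hxP'⟩)
  obtain ⟨z, hzS, hzH, hz⟩ := Cfsg.Agent.H759.mem_imageAlong.1 h5
  have hxφ : (x : Ω)⁻¹ * φ x ∈ S := S.mul_mem (S.inv_mem hxS) (hom_apply_mem hφ x)
  have h6 : θ ⟨z, hzS⟩ = θ ⟨(x : Ω)⁻¹ * φ x, hxφ⟩ := by
    rw [hz, h3]
    have h7 : (⟨(x : Ω)⁻¹ * φ x, hxφ⟩ : S) = ⟨x, hxS⟩⁻¹ * ⟨φ x, hom_apply_mem hφ x⟩ := Subtype.ext rfl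
    rw [h7, map_mul, map_inv]
    congr 2
    exact Subtype.ext h4
  have h7 := (Cfsg.Agent.H759.theta_eq_iff hE).1 h6
  have h8 : (x : Ω)⁻¹ * φ x = z * (z⁻¹ * ((x : Ω)⁻¹ * φ x)) := by group
  rw [h8]
  exact (H ⊔ Q).mul_mem ((le_sup_left : H ≤ H ⊔ Q) hzH) ((le_sup_right : Q ≤ H ⊔ Q) h7)

end Cfsg.Agent.H769
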