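import Cfsg.Agent.H769.NsLift
import Cfsg.Agent.H769.NsGroup

/-!
# Fixed points in the cosets of `Z(P)` (helper769)

`E` normal in `F` over `T`, `P` `E`-centric and fully normalized in `F`, `x ∈ C_S(N_T(P))`. Then for some
`z ∈ Z(N_T(P)) ∩ P` every element of `Aut_E(P)` extends to a map of `F` on `P C_S(P)` fixing `x z`.
-/

set_option autoImplicit false

namespace Cfsg.Agent.H769

open Cfsg Cfsg.FusionSystem Cfsg.Agent.H752

variable {Ω : Type*} [Group Ω] {S T : Subgroup Ω} {p : ℕ}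

/-- The automorphisms in `F` of `P C_S(P)`, trivial modulo `P`, which restrict to elements of `Aut_E(P)`. -/
def liftGroup (F : FusionSystem S) (E : FusionSystem T) (P : Subgroup Ω) :
    Subgroup (MulAut ↥(P ⊔ centralizerIn S P)) where
  carrier := {β | β ∈ F.autGroup (P ⊔ centralizerIn S P) ∧
    (∀ y : ↥(P ⊔ centralizerIn S P), (y : Ω)⁻¹ * (β y : ↥(P ⊔ centralizerIn S P)) ∈ P) ∧
    ∃ α : E.autGroup P, ∀ (x : P) (hx : (x : Ω) ∈ P ⊔ centralizerIn S P),
      ((β ⟨x, hx⟩ : ↥(P ⊔ centralizerIn S P)) : Ω) = ((α : MulAut P) x : P)}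
  one_mem' := ⟨one_mem _, fun y => by simp, 1, fun x hx => rfl⟩
  mul_mem' := by
    rintro a b ⟨ha, ha1, α, hα⟩ ⟨hb, hb1, β, hβ⟩
    refine ⟨mul_mem ha hb, fun y => ?_, α * β, fun x hx => ?_⟩
    · have h1 := mul_mem (hb1 y) (ha1 (b y))
      rw [MulAut.mul_apply]
      simpa [mul_assoc] using h1
    · have h1 : b ⟨x, hx⟩ = ⟨((β : MulAut P) x : P), (le_sup_left : P ≤ _) ((β : MulAut P) x).2⟩ :=
        Subtype.ext (hβ x hx)
      rw [MulAut.mul_apply, h1, hα]
      rfl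
  inv_mem' := by
    rintro a ⟨ha, ha1, α, hα⟩
    refine ⟨inv_mem ha, fun y => ?_, α⁻¹, fun x hx => ?_⟩
    · have h1 := inv_mem (ha1 (a⁻¹ y))
      rw [MulAut.apply_inv_self] at h1
      simpa using h1
    · have h1 : a ⟨((α⁻¹ : MulAut P) x : P), (le_sup_left : P ≤ _) ((α⁻¹ : MulAut P) x).2⟩ =
          ⟨x, hx⟩ := by
        apply Subtype.ext
        rw [hα ((α⁻¹ : MulAut P) x)]
        show (((α : MulAut P) ((α : MulAut P)⁻¹ x) : P) : Ω) = x
        rw [MulAut.apply_inv_self]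
      have h2 : a⁻¹ ⟨x, hx⟩ =
          ⟨((α⁻¹ : MulAut P) x : P), (le_sup_left : P ≤ _) ((α⁻¹ : MulAut P) x).2⟩ := by
        rw [← h1, MulAut.inv_apply_self]
      rw [h2]
      rfl

/-- **Fixed points.** -/
theorem exists_fix [Finite S] [Fact p.Prime] (hS : IsPGroup p S) {F : FusionSystem S}
    {E : FusionSystem T} (hE : E.IsNormalIn F p) {P : Subgroup Ω} (hPn : F.IsFullyNormalized P)
    (hPc : E.IsCentric P) {x : Ω} (hx : x ∈ centralizerIn S (normalizerIn T P)) :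
    ∃ z ∈ P, (∀ t ∈ normalizerIn T P, t * z = z * t) ∧ ∀ α ∈ E.autGroup P,
      ∃ g, Mp F (P ⊔ centralizerIn S P) g ∧ (∀ (y : Ω) (hy : y ∈ P), g y = (α ⟨y, hy⟩ : P)) ∧
        g (x * z) = x * z ∧ ∀ c ∈ P ⊔ centralizerIn S P, c⁻¹ * g c ∈ P := by
  classical
  have hF : F.IsSaturated p := hE.1.2.1
  have hEs : E.IsSaturated p := hE.1.1
  have hinv : E.IsInvariantIn F := hE.1.2.2
  have hT : F.StronglyClosed T := hinv.2.1
  have hTS : T ≤ S := hT.1
  have hfinT : Finite T := H802.finite_of_le hTS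
  have hTp : IsPGroup p T := hS.to_le hTS
  have hPT : P ≤ T := hPc.1
  have hPS : P ≤ S := hPT.trans hTS
  have hfinP : Finite P := H802.finite_of_le hPS
  have hTC : H756.TC F T P := (H756.isCentric_iff_tc hinv).1 hPc
  have hPE : E.IsFullyNormalized P := H755.isFullyNormalized_sub hS hF hinv.1 hT hPT hPn
  have hPEa := H802.isFullyAutomized_of_isFullyNormalized hTp hEs hPE
  obtain ⟨R₀, hR₀⟩ := hPEa.2
  have hPfc := H802.isFullyCentralized_of_isFullyNormalized hS hF hPn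
  obtain ⟨Q, hQ⟩ : ∃ Q, Q = P ⊔ centralizerIn S P := ⟨_, rfl⟩
  have hPN : P ≤ normalizerIn T P := H802.le_normalizerIn hPT
  have hQS : Q ≤ S := by rw [hQ]; exact sup_le hPS inf_le_left
  have hfinQ : Finite Q := H802.finite_of_le hQS
  have hPm : P ≤ Q := by rw [hQ]; exact le_sup_left
  have hCm : centralizerIn S P ≤ Q := by rw [hQ]; exact le_sup_right
  have hQc : F.IsCentric Q := by rw [hQ]; exact H770.isCentric_sup_centralizer hPfc
  have hQr := H802.isReceptive_of_isFullyCentralized hS hF (H793.isFullyCentralized_of_isCentric hQc)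
  have hfinMQ : Finite (MulAut Q) := H758.finite_mulAut Q
  have hfinMP : Finite (MulAut P) := H758.finite_mulAut P
  have hLA := liftable_all hS hE P hPc
  -- the group `A`
  obtain ⟨A, hA⟩ : ∃ A : Subgroup (MulAut Q), ∀ β, β ∈ A ↔ β ∈ F.autGroup Q ∧
      (∀ y : Q, (y : Ω)⁻¹ * (β y : Q) ∈ P) ∧ ∃ α : E.autGroup P, ∀ (x : P) (hx : (x : Ω) ∈ Q),
        ((β ⟨x, hx⟩ : Q) : Ω) = ((α : MulAut P) x : P) := by
    subst hQ
    exact ⟨liftGroup F E P, fun β => Iff.rfl⟩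
  have hfinA : Finite A := inferInstance
  have hAF : ∀ a : A, (a : MulAut Q) ∈ F.autGroup Q := fun a => ((hA a).1 a.2).1
  have hAt : ∀ (a : A) (y : Q), (y : Ω)⁻¹ * ((a : MulAut Q) y : Q) ∈ P := fun a => ((hA a).1 a.2).2.1
  choose r hr using fun a : A => ((hA a).1 a.2).2.2
  let ρ : A →* E.autGroup P :=
    { toFun := r
      map_one' := by
        apply Subtype.ext
        ext y
        rw [← hr 1 y (hPm y.2)]
        rfl
      map_mul' := by
        intro a b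
        apply Subtype.ext
        ext y
        rw [← hr (a * b) y (hPm y.2)]
        show (((a : MulAut Q) ((b : MulAut Q) ⟨y, _⟩) : Q) : Ω) = ((r a : MulAut P) ((r b : MulAut P) y) : P)
        have h1 : (b : MulAut Q) ⟨y, hPm y.2⟩ = ⟨((r b : MulAut P) y : P), hPm ((r b : MulAut P) y).2⟩ :=
          Subtype.ext (hr b y _)
        rw [h1, hr a] }
  have hρ : ∀ (a : A) (y : P), (((a : MulAut Q) ⟨y, hPm y.2⟩ : Q) : Ω) = ((ρ a : MulAut P) y : P) :=
    fun a y => hr a y _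
  have hmpa : ∀ a : A, Mp F Q (H770.ac (a : MulAut Q)) := fun a => H770.mp_ac hQS (hAF a)
  have hmpa' : ∀ a : A, Mp F (P ⊔ centralizerIn S P) (H770.ac (a : MulAut Q)) := fun a =>
    (hmpa a).res (le_of_eq hQ.symm)
  -- kernel
  have hkerP : ∀ k : A, k ∈ ρ.ker ↔ ∀ y : P, (((k : MulAut Q) ⟨y, hPm y.2⟩ : Q) : Ω) = y := by
    intro k
    rw [MonoidHom.mem_ker]
    constructor
    · intro h y
      rw [hρ k y, h]
      rfl
    · intro h
      apply Subtype.ext
      ext y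
      rw [← hρ k y, h y]
      rfl
  have hkerS : ∀ k ∈ ρ.ker, ∃ s ∈ centralizerIn S P, ∀ y : Q, (((k : MulAut Q) y : Q) : Ω) = s * y * s⁻¹ := by
    intro k hk
    obtain ⟨s, hs, h2⟩ := conj_of_triv hS hF hPfc (hmpa' k)
      (fun y hy => by rw [H770.ac_apply _ (hPm hy)]; exact (hkerP k).1 hk ⟨y, hy⟩)
      (fun c hc => by rw [H770.ac_apply _ (hCm hc)]; exact hAt k ⟨c, hCm hc⟩)
    refine ⟨s, hs, fun y => ?_⟩
    have h3 := h2 y (hQ ▸ y.2)
    rwa [H770.ac_apply _ y.2] at h3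
  have hker : IsPGroup p ρ.ker := by
    rintro ⟨k, hk⟩
    obtain ⟨s, hs, h1⟩ := hkerS k hk
    have h2 : (k : MulAut Q) ∈ autInducedBy S Q := (H802.mem_autInducedBy_iff S Q _).2 ⟨s, hs.1, h1⟩
    obtain ⟨n, hn⟩ := H802.isPGroup_autInducedBy hS Q ⟨(k : MulAut Q), h2⟩
    have h3 : (k : MulAut Q) ^ p ^ n = 1 :=
      congrArg (fun w : autInducedBy S Q => (w : MulAut Q)) hn
    exact ⟨n, Subtype.ext (Subtype.ext h3)⟩
  have hsurj : ∀ α : E.autGroup P, ∃ a : A, ρ a = α := by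
    intro α
    obtain ⟨g, hg, hg1, hg2⟩ := mp_of_lifts (lifts_of_liftable hPn (hLA α α.2))
    rw [← hQ] at hg hg2
    obtain ⟨β, hβ, hβg⟩ := hg.exists_aut (fun y hy => by
      have h1 := mul_mem hy (hPm (hg2 y hy))
      rwa [mul_inv_cancel_left] at h1)
    have hβA : β ∈ A := (hA β).2 ⟨hβ, fun y => by
      rw [← hβg y y.2]; exact hg2 y y.2, α, fun y hy => by
      rw [← hβg y hy]; exact hg1 y y.2⟩
    refine ⟨⟨β, hβA⟩, ?_⟩
    apply Subtype.ext
    ext y
    rw [← hρ ⟨β, hβA⟩ y, ← hβg y (hPm y.2)]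
    exact hg1 y y.2
  have hrange : ρ.range = ⊤ := MonoidHom.range_eq_top.2 hsurj
  let R : Sylow p A := R₀.comapOfKerIsPGroup ρ hker (by rw [hrange]; exact le_top)
  have hRmem : ∀ a : A, a ∈ (R : Subgroup A) ↔ (ρ a : MulAut P) ∈ autInducedBy T P := by
    intro a
    show ρ a ∈ (R₀ : Subgroup (E.autGroup P)) ↔ _
    rw [hR₀]
    exact Iff.rfl
  -- the subgroup `B`
  let B : Subgroup A :=
    { carrier := {b | ∃ t ∈ T, ∀ y : Q, (((b : MulAut Q) y : Q) : Ω) = t * y * t⁻¹}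
      one_mem' := ⟨1, one_mem T, fun y => by simp⟩
      mul_mem' := by
        rintro a b ⟨t, ht, h1⟩ ⟨u, hu, h2⟩
        refine ⟨t * u, T.mul_mem ht hu, fun y => ?_⟩
        show (((a : MulAut Q) ((b : MulAut Q) y) : Q) : Ω) = _
        rw [h1, h2]
        group
      inv_mem' := by
        rintro a ⟨t, ht, h1⟩
        refine ⟨t⁻¹, T.inv_mem ht, fun y => ?_⟩
        have h2 := h1 ((a : MulAut Q)⁻¹ y)
        rw [MulAut.apply_inv_self] at h2
        show (((a : MulAut Q)⁻¹ y : Q) : Ω) = _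
        rw [h2]
        group }
  have hBN : ∀ b : A, ∀ t ∈ T, (∀ y : Q, (((b : MulAut Q) y : Q) : Ω) = t * y * t⁻¹) →
      t ∈ normalizerIn T P := by
    intro b t ht h1
    refine ⟨ht, H802.mem_normalizer_of_conj_mem hPS fun y hy => ?_⟩
    rw [← h1 ⟨y, hPm hy⟩, hρ b ⟨y, hy⟩]
    exact Subtype.coe_prop _
  have hBex : ∀ t ∈ normalizerIn T P, ∃ b ∈ B, ∀ y : Q, (((b : MulAut Q) y : Q) : Ω) = t * y * t⁻¹ := by
    intro t ht
    have htS : t ∈ S := hTS ht.1
    have htC : ∀ c ∈ centralizerIn S P, t * c * t⁻¹ ∈ centralizerIn S P := fun c hc =>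
      conj_mem_centralizerIn htS ht.2 hc
    have htQ : t ∈ Subgroup.normalizer (Q : Set Ω) := by
      refine H802.mem_normalizer_of_conj_mem hQS fun y hy => ?_
      rw [hQ] at hy ⊢
      exact conj_mem_sup_centralizerIn htS ht.2 hy
    obtain ⟨β, hβ⟩ := H802.exists_conjAut htQ
    have hβF : β ∈ F.autGroup Q := H802.autInducedBy_le_autGroup F hQS
      ((H802.mem_autInducedBy_iff S Q β).2 ⟨t, htS, hβ⟩)
    have hCn : centralizerIn S P ≤ Subgroup.normalizer (P : Set Ω) :=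
      inf_le_right.trans (Subgroup.centralizer_le_normalizer _)
    have hcomm : ∀ c ∈ centralizerIn S P, c⁻¹ * (t * c * t⁻¹) ∈ P := by
      intro c hc
      refine hTC.self hTS ?_ fun y hy => ?_
      · have h1 : c⁻¹ * t * c ∈ T := by
          have := (Subgroup.mem_normalizer_iff.1
            (mem_normalizer_of_stronglyClosed hT (S.inv_mem hc.1)) t).1 ht.1
          rwa [inv_inv] at this
        have h2 : c⁻¹ * (t * c * t⁻¹) = c⁻¹ * t * c * t⁻¹ := by group
        rw [h2]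
        exact T.mul_mem h1 (T.inv_mem ht.1)
      · exact Subgroup.mem_centralizer_iff.1
          (Subgroup.mul_mem _ (Subgroup.inv_mem _ hc.2) (htC c hc).2) y hy
    obtain ⟨α, hα⟩ := H802.exists_conjAut ht.2
    have hαE : α ∈ E.autGroup P := H802.autInducedBy_le_autGroup E hPT
      ((H802.mem_autInducedBy_iff T P α).2 ⟨t, ht.1, hα⟩)
    have hβA : β ∈ A := by
      refine (hA β).2 ⟨hβF, fun y => ?_, ⟨α, hαE⟩, fun y hy => ?_⟩
      · rw [hβ y]
        obtain ⟨c, hc, u, hu, hcu⟩ := (H759.mem_sup_of_normalizes hCn).1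
          (show (y : Ω) ∈ centralizerIn S P ⊔ P by rw [sup_comm, ← hQ]; exact y.2)
        rw [← hcu]
        have h1 : (c * u)⁻¹ * (t * (c * u) * t⁻¹) = u⁻¹ * (c⁻¹ * (t * c * t⁻¹)) * (t * u * t⁻¹) := by
          group
        rw [h1]
        exact mul_mem (mul_mem (inv_mem hu) (hcomm c hc)) ((Subgroup.mem_normalizer_iff.1 ht.2 u).1 hu)
      · rw [hβ]
        exact (hα y).symm
    exact ⟨⟨β, hβA⟩, ⟨t, ht.1, hβ⟩, hβ⟩
  have hBR : B ≤ R := by
    rintro b ⟨t, ht, h1⟩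
    rw [hRmem]
    refine (H802.mem_autInducedBy_iff T P _).2 ⟨t, ht, fun y => ?_⟩
    rw [← hρ b y, h1]
  have hBK : ∀ s ∈ (R : Subgroup A), ∃ b ∈ B, ∃ k ∈ ρ.ker, s = b * k := by
    intro s hs
    obtain ⟨t, ht, h1⟩ := (H802.mem_autInducedBy_iff T P _).1 ((hRmem s).1 hs)
    have htN : t ∈ normalizerIn T P := ⟨ht, H802.mem_normalizer_of_aut h1⟩
    obtain ⟨b, hb, hbt⟩ := hBex t htN
    refine ⟨b, hb, b⁻¹ * s, ?_, by group⟩
    rw [MonoidHom.mem_ker, map_mul, map_inv, inv_mul_eq_one]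
    apply Subtype.ext
    ext y
    rw [← hρ b y, hbt, h1]
  -- the kernel is central
  have hK : ∀ k ∈ ρ.ker, ∀ a : A, a * k = k * a := by
    intro k hk a
    have hkP := (hkerP k).1 hk
    have hac : ∀ (a : A) {y : Ω} (hy : y ∈ P), H770.ac (a : MulAut Q) y ∈ P := fun a y hy => by
      rw [H770.ac_apply _ (hPm hy), hρ a ⟨y, hy⟩]
      exact Subtype.coe_prop _
    have hkPc : ∀ {y : Ω}, y ∈ P → H770.ac (k : MulAut Q) y = y := fun {y} hy => by
      rw [H770.ac_apply _ (hPm hy)]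
      exact hkP ⟨y, hy⟩
    have hact : ∀ (a : A) {y : Ω} (hy : y ∈ Q), y⁻¹ * H770.ac (a : MulAut Q) y ∈ P := fun a y hy => by
      rw [H770.ac_apply _ hy]
      exact hAt a ⟨y, hy⟩
    have key : ∀ y ∈ P ⊔ centralizerIn S P,
        H770.ac ((a * k : A) : MulAut Q) y = H770.ac ((k * a : A) : MulAut Q) y := by
      refine H754.mp_sup_eq (hmpa' (a * k)) (hmpa' (k * a)) (fun y hy => ?_) (fun c hc => ?_)
      · have h1 : H770.ac ((a * k : A) : MulAut Q) y = H770.ac (a : MulAut Q) (H770.ac (k : MulAut Q) y) :=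
          H770.ac_mul _ _ (hPm hy)
        have h2 : H770.ac ((k * a : A) : MulAut Q) y = H770.ac (k : MulAut Q) (H770.ac (a : MulAut Q) y) :=
          H770.ac_mul _ _ (hPm hy)
        rw [h1, h2, hkPc hy, hkPc (hac a hy)]
      · have hcQ : c ∈ Q := hCm hc
        have h1 : H770.ac ((a * k : A) : MulAut Q) c = H770.ac (a : MulAut Q) (H770.ac (k : MulAut Q) c) :=
          H770.ac_mul _ _ hcQ
        have h2 : H770.ac ((k * a : A) : MulAut Q) c = H770.ac (k : MulAut Q) (H770.ac (a : MulAut Q) c) :=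
          H770.ac_mul _ _ hcQ
        obtain ⟨w, hw⟩ : ∃ w, w = c⁻¹ * H770.ac (k : MulAut Q) c := ⟨_, rfl⟩
        obtain ⟨u, hu⟩ : ∃ u, u = c⁻¹ * H770.ac (a : MulAut Q) c := ⟨_, rfl⟩
        have hwP : w ∈ P := by rw [hw]; exact hact k hcQ
        have huP : u ∈ P := by rw [hu]; exact hact a hcQ
        have hkc : H770.ac (k : MulAut Q) c = c * w := by rw [hw]; group
        have hac' : H770.ac (a : MulAut Q) c = c * u := by rw [hu]; group
        -- `w` is central in `P`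
        have hIk : H770.Im (H770.ac (k : MulAut Q)) P P := (H770.Im.id P).congr fun y hy => hkPc hy
        have hkcC : H770.ac (k : MulAut Q) c ∈ Subgroup.centralizer (P : Set Ω) :=
          H770.Mp.mem_centralizer (hmpa k) hPm hIk hcQ hc.2
        have hwC : w ∈ Subgroup.centralizer (P : Set Ω) := by
          rw [hw]
          exact Subgroup.mul_mem _ (Subgroup.inv_mem _ hc.2) hkcC
        -- `a` fixes `w`
        have hzc : P ⊔ Subgroup.zpowers c ≤ Q := sup_le hPm (by rw [Subgroup.zpowers_le]; exact hcQ)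
        obtain ⟨φ, hφ, hφe⟩ := (hmpa k).res hzc
        have haw : H770.ac (a : MulAut Q) w = w := by
          rw [H770.ac_apply _ (hPm hwP), hρ a ⟨w, hwP⟩]
          refine (hLA (ρ a) (ρ a).2).fixes hS hF hPS hc hwP hφ (fun y hy hy' => ?_) (fun hcV => ?_)
          · rw [hφe]; exact hkPc hy
          · rw [hφe]; exact hkc
        rw [h1, h2, hkc, hac', (hmpa a).mul hcQ (hPm hwP), haw, hac',
          (hmpa k).mul hcQ (hPm huP), hkPc huP, hkc, mul_assoc, mul_assoc,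
          Subgroup.mem_centralizer_iff.1 hwC u huP]
    apply Subtype.ext
    ext y
    have h1 := key y (hQ ▸ y.2)
    rw [H770.ac_apply _ y.2, H770.ac_apply _ y.2] at h1
    exact h1
  -- strong closure of `B`
  have hB : ∀ b ∈ B, ∀ a : A, a * b * a⁻¹ ∈ (R : Subgroup A) → a * b * a⁻¹ ∈ B := by
    rintro b ⟨t, ht, hbt⟩ a haR
    obtain ⟨b', ⟨t', ht', hbt'⟩, k', hk', hbk⟩ := hBK _ haR
    obtain ⟨s', hs', hks'⟩ := hkerS k' hk'
    have htQ : t ∈ Subgroup.normalizer (Q : Set Ω) := H802.mem_normalizer_of_aut hbt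
    have hab : ∀ y : Q, (((a : MulAut Q) ((b : MulAut Q) y) : Q) : Ω) =
        (t' * s') * ((a : MulAut Q) y : Q) * (t' * s')⁻¹ := by
      intro y
      have h1 : ((a * b * a⁻¹ : A) : MulAut Q) ((a : MulAut Q) y) = (a : MulAut Q) ((b : MulAut Q) y) := by
        show (a : MulAut Q) ((b : MulAut Q) ((a : MulAut Q)⁻¹ ((a : MulAut Q) y))) = _
        rw [MulAut.inv_apply_self]
      rw [← h1, hbk]
      show (((b' : MulAut Q) ((k' : MulAut Q) ((a : MulAut Q) y)) : Q) : Ω) = _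
      rw [hbt', hks']
      group
    obtain ⟨M', L, hL, hQM, hLe, hLM⟩ := H753.mp_extend hQr (hmpa a) (H770.im_ac (a : MulAut Q))
    have htM : t ∈ M' := by
      refine hLM t (hTS ht) htQ ⟨t' * s', S.mul_mem (hTS ht') hs'.1, fun y hy => ?_⟩
      have h1 := hab ⟨y, hy⟩
      have h2 : t * y * t⁻¹ ∈ Q := (Subgroup.mem_normalizer_iff.1 htQ y).1 hy
      rw [H770.ac_apply _ h2, H770.ac_apply _ hy, ← h1]
      congr 2
      exact Subtype.ext (hbt ⟨y, hy⟩).symm
    refine ⟨L t, mp_mem_of_stronglyClosed hT hL htM ht, fun y => ?_⟩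
    obtain ⟨w, hw⟩ : ∃ w : Q, (a : MulAut Q) w = y := ⟨(a : MulAut Q)⁻¹ y, MulAut.apply_inv_self _ _ _⟩
    have h1 : ((a * b * a⁻¹ : A) : MulAut Q) y = (a : MulAut Q) ((b : MulAut Q) w) := by
      rw [← hw]
      show (a : MulAut Q) ((b : MulAut Q) ((a : MulAut Q)⁻¹ ((a : MulAut Q) w))) = _
      rw [MulAut.inv_apply_self]
    rw [h1]
    have h2 : ((b : MulAut Q) w : Q) = ⟨t * w * t⁻¹, (Subgroup.mem_normalizer_iff.1 htQ w).1 w.2⟩ :=
      Subtype.ext (hbt w)
    rw [h2, ← H770.ac_apply, ← hLe _ ((Subgroup.mem_normalizer_iff.1 htQ w).1 w.2),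
      hL.mul (mul_mem htM (hQM w.2)) (M'.inv_mem htM), hL.mul htM (hQM w.2), hL.inv htM,
      hLe w w.2, H770.ac_apply _ w.2]
    have h3 : ((a : MulAut Q) ⟨(w : Ω), w.2⟩ : Q) = y := hw
    rw [h3]
  obtain ⟨N, hBN', hNR, hNK, hidx⟩ := exists_normal_of_split R B ρ.ker hBR hBK hK hB
  -- the derivation
  have hxS : x ∈ S := hx.1
  have hxCP : x ∈ centralizerIn S P := centralizerIn_mono hPN hx
  have hxQ : x ∈ Q := hCm hxCP
  let xq : Q := ⟨x, hxQ⟩
  let V : Subgroup Q := (P ⊓ Subgroup.centralizer (P : Set Ω)).subgroupOf Q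
  have hVmem : ∀ v : Q, v ∈ V ↔ (v : Ω) ∈ P ∧ (v : Ω) ∈ Subgroup.centralizer (P : Set Ω) :=
    fun v => Iff.rfl
  have hfinB : Finite N := inferInstance
  have hact : ∀ (n : N) (y : Q), n • y = ((n : A) : MulAut Q) y := fun n y => rfl
  have hIma : ∀ a : A, H770.Im (H770.ac (a : MulAut Q)) P P := by
    intro a
    refine H770.Mp.im_of_maps ((hmpa a).res hPm) fun y hy => ?_
    rw [H770.ac_apply _ (hPm hy), hρ a ⟨y, hy⟩]
    exact Subtype.coe_prop _
  have hVinv : ∀ (n : N), ∀ v ∈ V, n • v ∈ V := by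
    intro n v hv
    have hv' := (hVmem v).1 hv
    rw [hVmem, hact]
    refine ⟨?_, ?_⟩
    · have h1 := hρ n ⟨v, hv'.1⟩
      rw [show ((n : A) : MulAut Q) v = ((n : A) : MulAut Q) ⟨v, hPm hv'.1⟩ from rfl, h1]
      exact Subtype.coe_prop _
    · have h1 := H770.Mp.mem_centralizer (hmpa n) hPm (hIma n) v.2 hv'.2
      rwa [H770.ac_apply _ v.2] at h1
  have hDV : ∀ n : N, xq⁻¹ * n • xq ∈ V := by
    intro n
    rw [hVmem, hact]
    refine ⟨hAt n xq, ?_⟩
    have h1 := H770.Mp.mem_centralizer (hmpa n) hPm (hIma n) hxQ hxCP.2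
    rw [H770.ac_apply _ hxQ] at h1
    exact Subgroup.mul_mem _ (Subgroup.inv_mem _ hxCP.2) h1
  have hcop : Nat.Coprime (B.subgroupOf N).index (Nat.card P) := by
    obtain ⟨m, hm⟩ := IsPGroup.iff_card.1 (hS.to_le hPS)
    rw [hm]
    exact (((Nat.Prime.coprime_iff_not_dvd (Fact.out : p.Prime)).2 hidx).symm).pow_right m
  obtain ⟨v, hv, hfix⟩ := exists_of_derivation V
    (fun a ha b hb => Subtype.ext (Subgroup.mem_centralizer_iff.1 ((hVmem b).1 hb).2 a ((hVmem a).1 ha).1))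
    hVinv (fun n : N => xq⁻¹ * n • xq) hDV
    (fun a b => by
      show xq⁻¹ * (a * b) • xq = xq⁻¹ * a • xq * a • (xq⁻¹ * b • xq)
      rw [smul_mul', smul_inv', mul_smul]
      group)
    (B.subgroupOf N) (fun b hb => by
      obtain ⟨t, ht, hbt⟩ : (b : A) ∈ B := hb
      have htN := hBN b t ht hbt
      have htx : t * x = x * t := Subgroup.mem_centralizer_iff.1 hx.2 t htN
      apply Subtype.ext
      show x⁻¹ * ((((b : A) : MulAut Q) xq : Q) : Ω) = 1
      rw [hbt]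
      show x⁻¹ * (t * x * t⁻¹) = 1
      rw [htx]
      group)
    (Nat.card P) hcop (fun v hv => by
      have h1 : (⟨v, ((hVmem v).1 hv).1⟩ : P) ^ Nat.card P = 1 := pow_card_eq_one'
      exact Subtype.ext (congrArg (fun y : P => (y : Ω)) h1))
  have hvP := ((hVmem v).1 hv).1
  -- `N` fixes `x v`
  have hfix' : ∀ n : A, n ∈ N → (((n : MulAut Q) (xq * v) : Q) : Ω) = x * v := by
    intro n hn
    have h1 := hfix ⟨n, hn⟩
    have h2 : (⟨n, hn⟩ : N) • (xq * v) = xq * v := by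
      rw [smul_mul']
      calc (⟨n, hn⟩ : N) • xq * (⟨n, hn⟩ : N) • v
          = xq * (xq⁻¹ * (⟨n, hn⟩ : N) • xq * (⟨n, hn⟩ : N) • v) := by group
        _ = xq * v := by rw [h1]
    exact congrArg Subtype.val h2
  refine ⟨v, hvP, fun t ht => ?_, fun α hα => ?_⟩
  · obtain ⟨b, hb, hbt⟩ := hBex t ht
    have h1 := hfix' b (hBN' hb)
    rw [hbt] at h1
    have h1' : t * (x * v) * t⁻¹ = x * v := h1
    have htx : t * x = x * t := Subgroup.mem_centralizer_iff.1 hx.2 t ht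
    have h2 : x * (t * v * t⁻¹) = x * v := by
      calc x * (t * v * t⁻¹) = (x * t) * v * t⁻¹ := by group
        _ = t * x * v * t⁻¹ := by rw [htx]
        _ = t * (x * v) * t⁻¹ := by group
        _ = x * v := h1'
    have h3 : t * (v : Ω) * t⁻¹ = v := mul_left_cancel h2
    calc t * (v : Ω) = t * v * t⁻¹ * t := by group
      _ = v * t := by rw [h3]
  · obtain ⟨a, ha⟩ := hsurj ⟨α, hα⟩
    have ha' : a ∈ N ⊔ ρ.ker := by rw [hNK]; trivial
    obtain ⟨n, hn, k, hk, rfl⟩ := Subgroup.mem_sup_of_normal_right.1 ha'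
    have hρn : ρ n = ⟨α, hα⟩ := by
      rw [← ha, map_mul, (MonoidHom.mem_ker).1 hk, mul_one]
    refine ⟨H770.ac (n : MulAut Q), hmpa' n, fun y hy => ?_, ?_, fun c hc => ?_⟩
    · rw [H770.ac_apply _ (hPm hy), hρ n ⟨y, hy⟩, hρn]
    · have h1 : x * (v : Ω) ∈ Q := Q.mul_mem hxQ v.2
      rw [H770.ac_apply _ h1]
      exact hfix' n hn
    · rw [← hQ] at hc
      rw [H770.ac_apply _ hc]
      exact hAt n ⟨c, hc⟩

end Cfsg.Agent.H769
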