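import Cfsg.Agent.H769.NsFix
import Cfsg.Agent.H793.ZCenterOdd
import Cfsg.Agent.H757.Central

/-!
# Maps extending by the identity on `⟨x⟩` (helper769)
-/

set_option autoImplicit false

namespace Cfsg.Agent.H769

open Cfsg Cfsg.FusionSystem Cfsg.Agent.H752

variable {Ω : Type*} [Group Ω] {S T : Subgroup Ω} {p : ℕ} {F : FusionSystem S} {E : FusionSystem T}

/-- `f` on `P` extends to a map of `F` on `P ⟨x⟩` fixing `x`. -/
def Fx (F : FusionSystem S) (x : Ω) (P : Subgroup Ω) (f : Ω → Ω) : Prop :=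
  ∃ g, Mp F (P ⊔ Subgroup.zpowers x) g ∧ (∀ y ∈ P, g y = f y) ∧ g x = x

theorem mem_sup_zpowers (P : Subgroup Ω) (x : Ω) : x ∈ P ⊔ Subgroup.zpowers x :=
  (le_sup_right : Subgroup.zpowers x ≤ _) (Subgroup.mem_zpowers x)

theorem Fx.congr {x : Ω} {P : Subgroup Ω} {f f' : Ω → Ω} (h : Fx F x P f) (he : ∀ y ∈ P, f' y = f y) :
    Fx F x P f' := by
  obtain ⟨g, hg, h1, h2⟩ := h
  exact ⟨g, hg, fun y hy => (h1 y hy).trans (he y hy).symm, h2⟩

theorem Fx.res {x : Ω} {P R : Subgroup Ω} {f : Ω → Ω} (h : Fx F x P f) (hR : R ≤ P) :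
    Fx F x R f := by
  obtain ⟨g, hg, h1, h2⟩ := h
  exact ⟨g, hg.res (sup_le_sup_right hR _), fun y hy => h1 y (hR hy), h2⟩

theorem Fx.comp {x : Ω} {P Q : Subgroup Ω} {f f' : Ω → Ω} (h : Fx F x P f) (h' : Fx F x Q f')
    (hm : ∀ y ∈ P, f y ∈ Q) : Fx F x P (fun y => f' (f y)) := by
  obtain ⟨g, hg, h1, h2⟩ := h
  obtain ⟨g', hg', h1', h2'⟩ := h'
  have hmap : ∀ y ∈ P ⊔ Subgroup.zpowers x, g y ∈ Q ⊔ Subgroup.zpowers x := by
    refine H754.mp_sup_mem hg (fun y hy => ?_) (fun y hy => ?_)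
    · rw [h1 y hy]
      exact (le_sup_left : Q ≤ _) (hm y hy)
    · obtain ⟨i, rfl⟩ := hy
      show g (x ^ i) ∈ _
      rw [H753.Mp.zpow hg (mem_sup_zpowers P x), h2]
      exact zpow_mem (mem_sup_zpowers Q x) i
  refine ⟨fun y => g' (g y), hg.comp hg' hmap, fun y hy => ?_, ?_⟩
  · show g' (g y) = f' (f y)
    rw [h1 y hy, h1' _ (hm y hy)]
  · show g' (g x) = x
    rw [h2, h2']

theorem Fx.symm {x : Ω} {P R : Subgroup Ω} {f f' : Ω → Ω} (h : Fx F x P f)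
    (hm : ∀ y ∈ R, ∃ z ∈ P, f z = y ∧ f' y = z) : Fx F x R f' := by
  obtain ⟨g, hg, h1, h2⟩ := h
  obtain ⟨W, hW, -, -⟩ := hg.exists_image le_rfl
  obtain ⟨b, hb, hb1, hb2⟩ := hg.exists_symm le_rfl hW
  have hPm : P ≤ P ⊔ Subgroup.zpowers x := le_sup_left
  have hle : R ⊔ Subgroup.zpowers x ≤ W := by
    refine sup_le (fun y hy => ?_) ?_
    · obtain ⟨z, hz, h3, -⟩ := hm y hy
      exact (hW _).2 ⟨z, hPm hz, by rw [h1 z hz, h3]⟩
    · rw [Subgroup.zpowers_le]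
      exact (hW _).2 ⟨x, mem_sup_zpowers P x, h2⟩
  refine ⟨b, hb.res hle, fun y hy => ?_, ?_⟩
  · obtain ⟨z, hz, h3, h4⟩ := hm y hy
    have h5 := hb1 z (hPm hz)
    rw [h1 z hz, h3] at h5
    rw [h5, h4]
  · have h5 := hb1 x (mem_sup_zpowers P x)
    rwa [h2] at h5

theorem Fx.conj {x : Ω} {P : Subgroup Ω} (hTS : T ≤ S) (hx : x ∈ centralizerIn S T) (hPT : P ≤ T)
    {t : Ω} (ht : t ∈ T) : Fx F x P (fun y => t * y * t⁻¹) := by
  refine ⟨fun y => t * y * t⁻¹, mp_conj F (sup_le (hPT.trans hTS)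
    (by rw [Subgroup.zpowers_le]; exact hx.1)) (hTS ht), fun _ _ => rfl, ?_⟩
  show t * x * t⁻¹ = x
  rw [Subgroup.mem_centralizer_iff.1 hx.2 t ht]
  group

/-- Transport by a map `a` defined on `T ⟨x⟩`. -/
theorem Fx.transport {x : Ω} {P P' : Subgroup Ω} {f f' a : Ω → Ω}
    (ha : Mp F (T ⊔ Subgroup.zpowers x) a) (hPT : P ≤ T) (hf : Fx F x P f) (hfT : ∀ y ∈ P, f y ∈ T)
    (hm : ∀ y ∈ P', ∃ z ∈ P, a z = y ∧ f' y = a (f z)) : Fx F (a x) P' f' := by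
  obtain ⟨g, hg, h1, h2⟩ := hf
  have hTm : T ≤ T ⊔ Subgroup.zpowers x := le_sup_left
  have hPm : P ≤ P ⊔ Subgroup.zpowers x := le_sup_left
  have hxT := mem_sup_zpowers T x
  have hle : P ⊔ Subgroup.zpowers x ≤ T ⊔ Subgroup.zpowers x := sup_le_sup_right hPT _
  obtain ⟨W, hW, -, -⟩ := (ha.res hle).exists_image le_rfl
  obtain ⟨b, hb, hb1, hb2⟩ := (ha.res hle).exists_symm le_rfl hW
  have hW' : P' ⊔ Subgroup.zpowers (a x) ≤ W := by
    refine sup_le (fun y hy => ?_) ?_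
    · obtain ⟨z, hz, h3, -⟩ := hm y hy
      exact (hW _).2 ⟨z, hPm hz, h3⟩
    · rw [Subgroup.zpowers_le]
      exact (hW _).2 ⟨x, mem_sup_zpowers P x, rfl⟩
  have hgm : ∀ y ∈ P ⊔ Subgroup.zpowers x, g y ∈ T ⊔ Subgroup.zpowers x := by
    refine H754.mp_sup_mem hg (fun y hy => ?_) (fun y hy => ?_)
    · rw [h1 y hy]
      exact hTm (hfT y hy)
    · obtain ⟨i, rfl⟩ := hy
      show g (x ^ i) ∈ _
      rw [H753.Mp.zpow hg (mem_sup_zpowers P x), h2]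
      exact zpow_mem hxT i
  refine ⟨fun y => a (g (b y)), ((hb.res hW').comp hg fun y hy => (hb2 y (hW' hy)).1).comp ha
    fun y hy => hgm _ (hb2 y (hW' hy)).1, fun y hy => ?_, ?_⟩
  · obtain ⟨z, hz, h3, h4⟩ := hm y hy
    show a (g (b y)) = f' y
    rw [← h3, hb1 z (hPm hz), h1 z hz, h3, h4]
  · show a (g (b (a x))) = a x
    rw [hb1 x (mem_sup_zpowers P x), h2]

/-- **Uniqueness.** If the `p'`-automorphism `α ∈ Aut_E(P)` extends to a map fixing `x` and to a map fixing `x z`,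
`z ∈ Z(P)`, then `α` fixes `z`. -/
theorem fix_of_two [Finite S] [Fact p.Prime] (hS : IsPGroup p S) (hE : E.IsNormalIn F p)
    {P : Subgroup Ω} (hPc : E.IsCentric P) {x z : Ω} (hx : x ∈ centralizerIn S P) (hz : z ∈ P)
    {α : MulAut P} (hα : α ∈ E.autGroup P) (hcop : Nat.Coprime (orderOf α) p)
    (h1 : Fx F x P (H770.ac α)) (h2 : Fx F (x * z) P (H770.ac α)) : H770.ac α z = z := by
  have hF : F.IsSaturated p := hE.1.2.1
  have hTS : T ≤ S := hE.1.2.2.2.1.1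
  have hPT : P ≤ T := hPc.1
  have hPS : P ≤ S := hPT.trans hTS
  have hfinP : Finite P := H802.finite_of_le hPS
  obtain ⟨g₁, hg₁, h11, h12⟩ := h1
  obtain ⟨g₂, hg₂, h21, h22⟩ := h2
  have hPm : P ≤ P ⊔ Subgroup.zpowers x := le_sup_left
  have hPm' : P ≤ P ⊔ Subgroup.zpowers (x * z) := le_sup_left
  have hxm := mem_sup_zpowers P x
  have hle : P ⊔ Subgroup.zpowers x ≤ P ⊔ Subgroup.zpowers (x * z) := by
    refine sup_le hPm' ?_
    rw [Subgroup.zpowers_le]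
    have h3 := mul_mem (mem_sup_zpowers P (x * z)) (Subgroup.inv_mem _ (hPm' hz))
    rwa [mul_inv_cancel_right] at h3
  have hg₂' := hg₂.res hle
  have hacP : ∀ y ∈ P, H770.ac α y ∈ P := fun y hy => H770.ac_mem α hy
  have hg₂x : g₂ x = x * z * (H770.ac α z)⁻¹ := by
    have h3 : g₂ (x * z) = g₂ x * g₂ z := hg₂'.mul hxm (hPm hz)
    rw [h22, h21 z hz] at h3
    rw [h3]
    group
  obtain ⟨W, hW, -, -⟩ := hg₁.exists_image le_rfl
  obtain ⟨b, hb, hb1, hb2⟩ := hg₁.exists_symm le_rfl hW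
  have hxW : x ∈ W := (hW _).2 ⟨x, hxm, h12⟩
  have hPW : P ≤ W := fun y hy => by
    obtain ⟨u, hu, rfl⟩ := ((H770.im_ac α) y).1 hy
    exact (hW _).2 ⟨u, hPm hu, h11 u hu⟩
  have hbx : b x = x := by
    have h3 := hb1 x hxm
    rwa [h12] at h3
  have hbα : ∀ y ∈ P, b (H770.ac α y) = y := fun y hy => by
    have h3 := hb1 y (hPm hy)
    rwa [h11 y hy] at h3
  have hbP : ∀ y ∈ P, b y ∈ P := fun y hy => by
    obtain ⟨u, hu, rfl⟩ := ((H770.im_ac α) y).1 hy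
    rw [hbα u hu]
    exact hu
  have hmap : ∀ y ∈ P ⊔ Subgroup.zpowers x, g₂ y ∈ W := by
    refine H754.mp_sup_mem hg₂' (fun y hy => ?_) (fun y hy => ?_)
    · rw [h21 y hy]
      exact hPW (hacP y hy)
    · obtain ⟨i, rfl⟩ := hy
      show g₂ (x ^ i) ∈ _
      rw [H753.Mp.zpow hg₂' hxm, hg₂x]
      exact zpow_mem (mul_mem (mul_mem hxW (hPW hz)) (W.inv_mem (hPW (hacP z hz)))) i
  have hδ := hg₂'.comp hb hmap
  obtain ⟨w, hw⟩ : ∃ w, w = b z * z⁻¹ := ⟨_, rfl⟩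
  have hwP : w ∈ P := by rw [hw]; exact mul_mem (hbP z hz) (inv_mem hz)
  have hδx : b (g₂ x) = x * w := by
    rw [hg₂x, hb.mul (mul_mem hxW (hPW hz)) (W.inv_mem (hPW (hacP z hz))), hb.mul hxW (hPW hz),
      hb.inv (hPW (hacP z hz)), hbx, hbα z hz, hw, mul_assoc]
  obtain ⟨φ, hφ, hφe⟩ := hδ
  have hαw : H770.ac α w = w := by
    rw [H770.ac_apply _ hwP]
    refine (liftable_all hS hE P hPc α hα).fixes hS hF hPS hx hwP hφ (fun y hy hy' => ?_)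
      (fun hcV => ?_)
    · rw [hφe]
      show b (g₂ y) = y
      rw [h21 y hy, hbα y hy]
    · rw [hφe]
      exact hδx
  -- `α z = w⁻¹ z`
  have hαz : H770.ac α z = w⁻¹ * z := by
    have h3 : H770.ac α w = z * (H770.ac α z)⁻¹ := by
      have hm := (mp_iff_autGroup hPT α).1 hα
      have h4 : H770.ac α (b z) = z := by
        obtain ⟨u, hu, huz⟩ := ((H770.im_ac α) z).1 hz
        have h5 := hbα u hu
        rw [huz] at h5
        rw [h5, huz]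
      have h6 : H770.ac α (b z * z⁻¹) = H770.ac α (b z) * H770.ac α z⁻¹ := hm.mul (hbP z hz) (inv_mem hz)
      have h7 : H770.ac α z⁻¹ = (H770.ac α z)⁻¹ := hm.inv hz
      rw [hw, h6, h4, h7]
    rw [hαw] at h3
    rw [h3]
    group
  have hpow : ∀ n : ℕ, (((α ^ n) ⟨z, hz⟩ : P) : Ω) = (w ^ n)⁻¹ * z := by
    intro n
    induction n with
    | zero => simp
    | succ n ih =>
      have h3 : (α ^ n) ⟨z, hz⟩ = (⟨w, hwP⟩ ^ n)⁻¹ * ⟨z, hz⟩ := Subtype.ext ih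
      have h4 : α ⟨w, hwP⟩ = ⟨w, hwP⟩ := Subtype.ext (by rw [← H770.ac_apply]; exact hαw)
      have h5 : α ⟨z, hz⟩ = (⟨w, hwP⟩ : P)⁻¹ * ⟨z, hz⟩ :=
        Subtype.ext (by rw [← H770.ac_apply]; exact hαz)
      rw [pow_succ', MulAut.mul_apply, h3, map_mul, map_inv, map_pow, h4, h5]
      show (w ^ n)⁻¹ * (w⁻¹ * z) = (w ^ (n + 1))⁻¹ * z
      rw [pow_succ']
      group
  have h3 := hpow (orderOf α)
  rw [pow_orderOf_eq_one] at h3
  have h4 : w ^ orderOf α = 1 := by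
    have h5 : z = (w ^ orderOf α)⁻¹ * z := h3
    have h6 : (w ^ orderOf α)⁻¹ = 1 := (mul_eq_right.1 h5.symm)
    exact inv_eq_one.1 h6
  obtain ⟨k, hk⟩ := (hS.to_le hPS) ⟨w, hwP⟩
  have hk' : w ^ p ^ k = 1 := congrArg Subtype.val hk
  have h5 : orderOf w ∣ Nat.gcd (orderOf α) (p ^ k) :=
    Nat.dvd_gcd (orderOf_dvd_of_pow_eq_one h4) (orderOf_dvd_of_pow_eq_one hk')
  rw [(hcop.pow_right k), Nat.dvd_one, orderOf_eq_one_iff] at h5
  rw [hαz, h5]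
  simp

/-- If `Aut_E(P)` fixes `z` and extends by the identity on `x z`, it extends by the identity on `x`. -/
theorem fx_of_fix {P : Subgroup Ω} {x z : Ω} (hz : z ∈ P) {f : Ω → Ω} (hf : f z = z)
    (h : Fx F (x * z) P f) : Fx F x P f := by
  obtain ⟨g, hg, h1, h2⟩ := h
  have hPm' : P ≤ P ⊔ Subgroup.zpowers (x * z) := le_sup_left
  have hxm : x ∈ P ⊔ Subgroup.zpowers (x * z) := by
    have h3 := mul_mem (mem_sup_zpowers P (x * z)) (Subgroup.inv_mem _ (hPm' hz))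
    rwa [mul_inv_cancel_right] at h3
  have hle : P ⊔ Subgroup.zpowers x ≤ P ⊔ Subgroup.zpowers (x * z) :=
    sup_le hPm' (by rw [Subgroup.zpowers_le]; exact hxm)
  refine ⟨g, hg.res hle, h1, ?_⟩
  have h3 : g (x * z) = g x * g z := hg.mul hxm (hPm' hz)
  rw [h2, h1 z hz, hf] at h3
  exact (mul_right_cancel h3).symm

end Cfsg.Agent.H769
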