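import Cfsg.Agent.H769.NsW

/-!
# Weighted downward induction and transport (helper769)
-/

set_option autoImplicit false

namespace Cfsg.Agent.H769

open Cfsg Cfsg.FusionSystem Cfsg.Agent.H752

variable {Ω : Type*} [Group Ω] {S T : Subgroup Ω} {p : ℕ} {F : FusionSystem S} {E : FusionSystem T}

/-- Downward induction with a weight, for the property "extends by the identity on `⟨x⟩` for all `x ∈ X`". -/
theorem fx_induction [Finite S] [Fact p.Prime] (hS : IsPGroup p S) (hE : E.IsNormalIn F p)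
    (X : Ω → Prop) (W : Subgroup Ω → ℕ)
    (hlt : ∀ P Q : Subgroup Ω, P < Q → Q ≤ T → W P < W Q)
    (hinv : ∀ (P P' : Subgroup Ω) (f : Ω → Ω), Mp E P f → H770.Im f P P' → W P' = W P)
    (h_aut : ∀ Q : Subgroup Ω, E.IsFullyNormalized Q →
      (∀ (R : Subgroup Ω) (f : Ω → Ω), Mp E R f → W Q < W R → ∀ x, X x → Fx F x R f) →
      ∀ α ∈ E.autGroup Q, ∀ x, X x → Fx F x Q (H770.ac α)) :
    ∀ (P : Subgroup Ω) (f : Ω → Ω), Mp E P f → ∀ x, X x → Fx F x P f := by
  have hEs : E.IsSaturated p := hE.1.1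
  have hinvE : E.IsInvariantIn F := hE.1.2.2
  have hTS : T ≤ S := hinvE.2.1.1
  have hfinT : Finite T := H802.finite_of_le hTS
  have hTp : IsPGroup p T := hS.to_le hTS
  have key : ∀ n : ℕ, ∀ (P : Subgroup Ω) (f : Ω → Ω), Mp E P f → W T - W P = n →
      ∀ x, X x → Fx F x P f := by
    intro n
    induction n using Nat.strong_induction_on with
    | _ n ih =>
    intro P f hf hn x hx
    have hPT : P ≤ T := hf.le
    have hfP : Finite P := H802.finite_of_le hPT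
    have big : ∀ (R : Subgroup Ω) (g : Ω → Ω), Mp E R g → W P < W R → ∀ x, X x → Fx F x R g := by
      intro R g hg hlt'
      have hRT : R ≤ T := hg.le
      have h1 : W R ≤ W T := by
        rcases hRT.eq_or_lt with h | h
        · rw [h]
        · exact (hlt R T h le_rfl).le
      exact ih (W T - W R) (by omega) R g hg rfl
    by_cases hPeq : P = T
    · subst hPeq
      have hTn : E.IsFullyNormalized P := by
        refine ⟨le_rfl, fun R hR => ?_⟩
        have h1 : normalizerIn P P = P := inf_eq_left.2 Subgroup.le_normalizer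
        rw [h1]
        exact Subgroup.card_le_of_le inf_le_left
      obtain ⟨α, hα, hfα⟩ := hf.exists_aut fun y hy => hf.mem hy
      exact (h_aut P hTn big α hα x hx).congr fun y hy => by rw [hfα y hy, H770.ac_apply _ hy]
    · obtain ⟨Q, hPQ, hQ⟩ := H802.exists_isFullyNormalized hTp hEs hPT
      obtain ⟨f₁, hf₁, hI₁⟩ := H770.exists_mp_of_isConj hPQ
      obtain ⟨k₁, hk₁, hk₁I⟩ := H770.mp_normalizer hTp hEs hQ hf₁ hI₁
      obtain ⟨P', hP', hP'T, hP'c⟩ := H770.Mp.exists_im hf (le_refl P)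
      have hfP' : Finite P' := H802.finite_of_le hP'T
      obtain ⟨b, hb, hb1, hb2⟩ := hf.exists_symm le_rfl hP'
      have hf₂ := hb.comp hf₁ fun y hy => (hb2 y hy).1
      have hI₂ : H770.Im (fun y => f₁ (b y)) P' Q := (hP'.symm hb1).comp hI₁
      obtain ⟨k₂, hk₂, hk₂I⟩ := H770.mp_normalizer hTp hEs hQ hf₂ hI₂
      have hWP' : W P' = W P := hinv P P' f hf hP'
      have hWQ : W Q = W P := hinv P Q f₁ hf₁ hI₁
      have hnorm : ∀ R : Subgroup Ω, R < T → W R < W (normalizerIn T R) := by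
        intro R hR
        have hfR : Finite R := H802.finite_of_le hR.le
        have h1 : R < normalizerIn T R := by
          refine lt_of_le_of_ne (H802.le_normalizerIn hR.le) fun h => ?_
          have := H802.card_lt_card_normalizerIn hTp hR.le hR.ne
          rw [← h] at this
          exact lt_irrefl _ this
        exact hlt R _ h1 inf_le_left
      have hPlt : P < T := lt_of_le_of_ne hPT hPeq
      have hP'lt : P' < T := by
        refine lt_of_le_of_ne hP'T fun h => hPeq ?_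
        exact Subgroup.eq_of_le_of_card_ge hPT (by rw [← hP'c, h])
      have hPN : P ≤ normalizerIn T P := H802.le_normalizerIn hPT
      have hP'N : P' ≤ normalizerIn T P' := H802.le_normalizerIn hP'T
      have hM₁ : Fx F x P k₁ := (big _ k₁ hk₁ (hnorm P hPlt) x hx).res hPN
      have hM₂ : Fx F x P' k₂ := (big _ k₂ hk₂ (by rw [← hWP']; exact hnorm P' hP'lt) x hx).res hP'N
      obtain ⟨b₁, hb₁, hb₁1, hb₁2⟩ := (hk₁.res hPN).exists_symm le_rfl hk₁I
      obtain ⟨b₂, hb₂, hb₂1, hb₂2⟩ := (hk₂.res hP'N).exists_symm le_rfl hk₂I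
      have hfQ : Finite Q := H802.finite_of_le hQ.1
      have hfb : ∀ y ∈ Q, f (b₁ y) ∈ P' := fun y hy => hP'.apply (hb₁2 y hy).1
      have hg := (hb₁.comp hf fun y hy => (hb₁2 y hy).1).comp (hk₂.res hP'N) hfb
      obtain ⟨α, hα, hgα⟩ := hg.exists_aut fun y hy => hk₂I.apply (hfb y hy)
      have hMα := h_aut Q hQ (by rw [hWQ]; exact big) α hα x hx
      have hMb₂ : Fx F x Q b₂ := hM₂.symm fun y hy => by
        obtain ⟨z, hz, rfl⟩ := (hk₂I y).1 hy
        exact ⟨z, hz, rfl, hb₂1 z hz⟩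
      have h1 : Fx F x P (fun y => b₂ (H770.ac α (k₁ y))) :=
        (hM₁.comp hMα fun y hy => hk₁I.apply hy).comp hMb₂ fun y hy =>
          H770.ac_mem α (hk₁I.apply hy)
      refine h1.congr fun y hy => ?_
      show f y = b₂ (H770.ac α (k₁ y))
      rw [H770.ac_apply _ (hk₁I.apply hy), ← hgα _ (hk₁I.apply hy)]
      show f y = b₂ (k₂ (f (b₁ (k₁ y))))
      rw [hb₁1 y hy, hb₂1 _ (hP'.apply hy)]
  intro P f hf
  exact key _ P f hf rfl

/-- **Transport of the property** from `P = ψ(Q)` to `Q`, `ψ` a map of `F` on `N_T(Q)`. -/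
theorem fx_transport [Finite S] [Fact p.Prime] (hE : E.IsNormalIn F p)
    {X : Ω → Prop} (hX : ∀ x, X x → x ∈ centralizerIn S T)
    (hXinv : ∀ a, Mp F (T ⊔ centralizerIn S T) a → ∀ x, X x → X (a x))
    {Q P : Subgroup Ω} (hQT : Q ≤ T) {ψ : Ω → Ω} (hψ : Mp F (normalizerIn T Q) ψ)
    (hI : H770.Im ψ Q P)
    (hN : ∀ f, Mp E (normalizerIn T Q) f → ∀ x, X x → Fx F x (normalizerIn T Q) f)
    (hP : ∀ α ∈ E.autGroup P, ∀ x, X x → Fx F x P (H770.ac α)) :
    ∀ α ∈ E.autGroup Q, ∀ x, X x → Fx F x Q (H770.ac α) := by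
  have hF : F.IsSaturated p := hE.1.2.1
  have hinv : E.IsInvariantIn F := hE.1.2.2
  have hT : F.StronglyClosed T := hinv.2.1
  have hTS : T ≤ S := hT.1
  have hfinT : Finite T := H802.finite_of_le hTS
  have hfinQ : Finite Q := H802.finite_of_le hQT
  have hQN : Q ≤ normalizerIn T Q := H802.le_normalizerIn hQT
  obtain ⟨-, -, -, hFr⟩ := isInvariantIn_iff.1 hinv
  have hSI := H758.strongInvC_of_isInvariantIn hinv
  obtain ⟨a, ha, φ, hφ, haφ⟩ := hFr _ ψ (inf_le_left : normalizerIn T Q ≤ T) hψ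
  have haT : ∀ y ∈ T, a y ∈ T := fun y hy => mp_mem_of_stronglyClosed hT ha hy hy
  -- extension of `a` to `T C_S(T)`
  obtain ⟨a', ha', haa'⟩ : ∃ a', Mp F (T ⊔ centralizerIn S T) a' ∧ ∀ y ∈ T, a' y = a y := by
    obtain ⟨α, hα, haα⟩ := ha.exists_aut haT
    obtain ⟨β, hβ, hαβ, -⟩ := exists_extension_centralizer hF hT hα
    have hle : T ⊔ centralizerIn S T ≤ S := sup_le hTS inf_le_left
    refine ⟨H770.ac β, H770.mp_ac hle hβ, fun y hy => ?_⟩
    rw [H770.ac_apply _ ((le_sup_left : T ≤ _) hy), haα y hy]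
    exact hαβ y hy
  intro α hα x hx
  have hxC := hX x hx
  have hxm : x ∈ T ⊔ centralizerIn S T := (le_sup_right : centralizerIn S T ≤ _) hxC
  have hTx : T ⊔ Subgroup.zpowers x ≤ T ⊔ centralizerIn S T :=
    sup_le le_sup_left (by rw [Subgroup.zpowers_le]; exact hxm)
  have hx' : X (a' x) := hXinv a' ha' x hx
  -- `Q₂ = φ(Q)`
  obtain ⟨Q₂, hQ₂, hQ₂T, -⟩ := H770.Mp.exists_im hφ hQN
  obtain ⟨b, hb, hb1, hb2⟩ := (hφ.res hQN).exists_symm le_rfl hQ₂
  have hαm : Mp E Q (H770.ac α) := H770.mp_ac hQT hα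
  -- `γ = φ α φ⁻¹` on `Q₂`
  have hαb : ∀ y ∈ Q₂, H770.ac α (b y) ∈ Q := fun y hy => H770.ac_mem α (hb2 y hy).1
  have hγ := (hb.comp hαm fun y hy => (hb2 y hy).1).comp (hφ.res hQN) hαb
  have hγm : ∀ y ∈ Q₂, φ (H770.ac α (b y)) ∈ Q₂ := fun y hy => hQ₂.apply (hαb y hy)
  -- `β = a γ a⁻¹` on `P`
  have haQ₂ : H770.Im a Q₂ P := by
    intro y
    rw [hI y]
    constructor
    · rintro ⟨u, hu, rfl⟩
      exact ⟨φ u, hQ₂.apply hu, (haφ u (hQN hu)).symm⟩
    · rintro ⟨u, hu, rfl⟩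
      obtain ⟨w, hw, rfl⟩ := (hQ₂ u).1 hu
      exact ⟨w, hw, haφ w (hQN hw)⟩
  obtain ⟨c, hc, hc1, hc2⟩ := (ha.res hQ₂T).exists_symm le_rfl haQ₂
  have hPT : P ≤ T := fun y hy => by
    obtain ⟨u, hu, rfl⟩ := (haQ₂ y).1 hy
    exact haT u (hQ₂T hu)
  have hfinP : Finite P := H802.finite_of_le hPT
  have hβ : Mp E P (fun y => a (φ (H770.ac α (b (c y))))) := by
    refine hSI Q₂ T P _ a _ hQ₂T le_rfl hγ (fun y hy => hQ₂T (hγm y hy)) ha fun y hy => ?_
    exact ⟨c y, (hc2 y hy).1, (hc2 y hy).2, rfl⟩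
  obtain ⟨β, hβm, hβe⟩ := hβ.exists_aut fun y hy =>
    haQ₂.apply (hγm (c y) (hc2 y hy).1)
  have h1 := hP β hβm (a' x) hx'
  -- back with `a'⁻¹`
  have hgood : Fx F x Q₂ (fun y => φ (H770.ac α (b y))) := by
    -- the inverse of `a'` on `T ⟨a' x⟩`
    have ha'T : Mp F (T ⊔ Subgroup.zpowers x) a' := ha'.res hTx
    obtain ⟨W, hW, -, -⟩ := ha'T.exists_image le_rfl
    obtain ⟨d, hd, hd1, hd2⟩ := ha'T.exists_symm le_rfl hW
    have hTm : T ≤ T ⊔ Subgroup.zpowers x := le_sup_left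
    have hTW : T ⊔ Subgroup.zpowers (a' x) ≤ W := by
      refine sup_le (fun y hy => ?_) ?_
      · obtain ⟨u, hu, rfl⟩ := (ha.surj haT hy)
        exact (hW _).2 ⟨u, hTm hu, haa' u hu⟩
      · rw [Subgroup.zpowers_le]
        exact (hW _).2 ⟨x, mem_sup_zpowers T x, rfl⟩
    have h2 : Fx F (d (a' x)) Q₂ (fun y => φ (H770.ac α (b y))) := by
      refine Fx.transport (hd.res hTW) hPT h1 (fun y hy => hPT (H770.ac_mem β hy)) fun y hy => ?_
      refine ⟨a y, haQ₂.apply hy, ?_, ?_⟩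
      · rw [← haa' y (hQ₂T hy)]
        exact hd1 y (hTm (hQ₂T hy))
      · have h3 : H770.ac β (a y) = a (φ (H770.ac α (b y))) := by
          rw [H770.ac_apply _ (haQ₂.apply hy), ← hβe _ (haQ₂.apply hy)]
          show a (φ (H770.ac α (b (c (a y))))) = _
          rw [hc1 y hy]
        rw [h3]
        show φ (H770.ac α (b y)) = _
        rw [← haa' _ (hQ₂T (hγm y hy)), hd1 _ (hTm (hQ₂T (hγm y hy)))]
    rwa [hd1 x (mem_sup_zpowers T x)] at h2
  have hφx : Fx F x Q φ := (hN φ hφ x hx).res hQN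
  have hbx : Fx F x Q₂ b := hφx.symm fun y hy => by
    obtain ⟨z, hz, rfl⟩ := (hQ₂ y).1 hy
    exact ⟨z, hz, rfl, hb1 z hz⟩
  have h2 : Fx F x Q (fun y => b (φ (H770.ac α (b (φ y))))) :=
    (hφx.comp hgood fun y hy => hQ₂.apply hy).comp hbx fun y hy => hγm _ (hQ₂.apply hy)
  refine h2.congr fun y hy => ?_
  show H770.ac α y = b (φ (H770.ac α (b (φ y))))
  rw [hb1 y hy, hb1 _ (H770.ac_mem α hy)]

end Cfsg.Agent.H769
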