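import Cfsg.Agent.H769.NsFx

/-!
# The two local steps (helper769)

`P` `E`-centric and fully normalized in `F`, `x ∈ C_S(T)`. If the automorphisms in `E` of `Q₁ = P J(N_T(P))`
(`p` odd), or of `Q₁ = C_{N_T(P)}(Z(P))`, extend to maps of `F` fixing `x`, then so do those of `P`.
-/

set_option autoImplicit false

namespace Cfsg.Agent.H769

open Cfsg Cfsg.FusionSystem Cfsg.Agent.H752

section general

variable {Ω : Type*} [Group Ω] {S T : Subgroup Ω} {p : ℕ} {F : FusionSystem S} {E : FusionSystem T}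

/-- The elements of `Aut_E(P)` normalizing `Aut_{Q₁}(P)` fix `z`. -/
theorem fixed_of_normalizes [Finite S] [Fact p.Prime] (hS : IsPGroup p S) (hE : E.IsNormalIn F p)
    {P Q₁ : Subgroup Ω} (hPn : F.IsFullyNormalized P) (hPc : E.IsCentric P) (hPQ : P ≤ Q₁)
    (hQN : Q₁ ≤ normalizerIn T P) (hQn : normalizerIn T P ≤ Subgroup.normalizer (Q₁ : Set Ω))
    {x z : Ω} (hx : x ∈ centralizerIn S P) (hz : z ∈ P) (hzN : ∀ t ∈ normalizerIn T P, t * z = z * t)
    (hgood : ∀ f, Mp E Q₁ f → (∀ y ∈ Q₁, f y ∈ Q₁) → Fx F x Q₁ f)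
    (hfix : ∀ α ∈ E.autGroup P, Fx F (x * z) P (H770.ac α)) :
    ∀ α ∈ E.autGroup P, (∀ δ ∈ autInducedBy Q₁ P, α * δ * α⁻¹ ∈ autInducedBy Q₁ P) →
      H770.ac α z = z := by
  have hF : F.IsSaturated p := hE.1.2.1
  have hEs : E.IsSaturated p := hE.1.1
  have hinv : E.IsInvariantIn F := hE.1.2.2
  have hT : F.StronglyClosed T := hinv.2.1
  have hTS : T ≤ S := hT.1
  have hfinT : Finite T := H802.finite_of_le hTS
  have hTp : IsPGroup p T := hS.to_le hTS
  have hPT : P ≤ T := hPc.1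
  have hPS : P ≤ S := hPT.trans hTS
  have hfinP : Finite P := H802.finite_of_le hPS
  have hTC : H756.TC F T P := (H756.isCentric_iff_tc hinv).1 hPc
  have hPE : E.IsFullyNormalized P := H755.isFullyNormalized_sub hS hF hinv.1 hT hPT hPn
  have hPEa := H802.isFullyAutomized_of_isFullyNormalized hTp hEs hPE
  have hPEr := H802.isReceptive_of_isFullyNormalized hTp hEs hPE
  obtain ⟨R, hR⟩ := hPEa.2
  have hfinMP : Finite (MulAut P) := H758.finite_mulAut P
  have hQT : Q₁ ≤ T := hQN.trans inf_le_left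
  let D : Subgroup (E.autGroup P) := (autInducedBy Q₁ P).subgroupOf (E.autGroup P)
  let H : Subgroup (E.autGroup P) := Subgroup.normalizer (D : Set (E.autGroup P))
  have hHmem : ∀ α ∈ E.autGroup P, (∀ δ ∈ autInducedBy Q₁ P, α * δ * α⁻¹ ∈ autInducedBy Q₁ P) →
      ∀ hα : α ∈ E.autGroup P, (⟨α, hα⟩ : E.autGroup P) ∈ H := by
    intro α _ h hα
    exact H802.mem_normalizer_of_conj_mem (le_refl D) fun δ hδ => h δ hδ
  have hHmem' : ∀ a : E.autGroup P, a ∈ H → ∀ δ ∈ autInducedBy Q₁ P,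
      (a : MulAut P) * δ * (a : MulAut P)⁻¹ ∈ autInducedBy Q₁ P := by
    intro a ha δ hδ
    have hδE : δ ∈ E.autGroup P := by
      obtain ⟨q, hq, h1⟩ := (H802.mem_autInducedBy_iff _ _ _).1 hδ
      exact H802.autInducedBy_le_autGroup E hPT
        ((H802.mem_autInducedBy_iff _ _ _).2 ⟨q, hQT hq, h1⟩)
    exact (Subgroup.mem_normalizer_iff.1 ha ⟨δ, hδE⟩).1 hδ
  let M : Subgroup H :=
    { carrier := {a | H770.ac (((a : H) : E.autGroup P) : MulAut P) z = z}
      one_mem' := H770.ac_one hz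
      mul_mem' := by
        intro a b ha hb
        show H770.ac (_ * _) z = z
        have h1 : H770.ac (((b : H) : E.autGroup P) : MulAut P) z = z := hb
        have h2 : H770.ac (((a : H) : E.autGroup P) : MulAut P) z = z := ha
        have h3 := H770.ac_mul (((a : H) : E.autGroup P) : MulAut P)
          (((b : H) : E.autGroup P) : MulAut P) hz
        rw [h1, h2] at h3
        exact h3
      inv_mem' := by
        intro a ha
        have h2 : H770.ac (((a : H) : E.autGroup P) : MulAut P) z = z := ha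
        have h3 := H770.ac_inv_ac (((a : H) : E.autGroup P) : MulAut P) hz
        rw [h2] at h3
        exact h3 }
  have hRt : ∀ a ∈ (R : Subgroup (E.autGroup P)), ∃ t ∈ normalizerIn T P,
      ∀ y : P, (((a : MulAut P) y : P) : Ω) = t * y * t⁻¹ := by
    intro a ha
    rw [hR] at ha
    obtain ⟨t, ht, h1⟩ := (H802.mem_autInducedBy_iff T P _).1 ha
    exact ⟨t, ⟨ht, H802.mem_normalizer_of_aut h1⟩, h1⟩
  have hRH : (R : Subgroup (E.autGroup P)) ≤ H := by
    intro a ha
    obtain ⟨t, ht, h1⟩ := hRt a ha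
    refine hHmem a a.2 (fun δ hδ => ?_) a.2
    obtain ⟨q, hq, h2⟩ := (H802.mem_autInducedBy_iff _ _ _).1 hδ
    refine (H802.mem_autInducedBy_iff _ _ _).2
      ⟨t * q * t⁻¹, (Subgroup.mem_normalizer_iff.1 (hQn ht) q).1 hq, fun y => ?_⟩
    have h3 : (((a : MulAut P)⁻¹ y : P) : Ω) = t⁻¹ * y * t := by
      have h4 := h1 ((a : MulAut P)⁻¹ y)
      rw [MulAut.apply_inv_self] at h4
      rw [h4]
      group
    show (((a : MulAut P) (δ ((a : MulAut P)⁻¹ y)) : P) : Ω) = _
    rw [h1, h2, h3]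
    group
  have hMtop : M = ⊤ := by
    refine H792.gen_top_of_sylow (R.subtype hRH) M (fun a ha => ?_) (fun a ha => ?_)
    · -- `p'`-elements
      obtain ⟨α, hα⟩ : ∃ α : MulAut P, α = (((a : H) : E.autGroup P) : MulAut P) := ⟨_, rfl⟩
      have hαE : α ∈ E.autGroup P := by rw [hα]; exact ((a : H) : E.autGroup P).2
      have hnorm := hHmem' (a : H) (a : H).2
      rw [← hα] at hnorm
      have hcop : Nat.Coprime (orderOf α) p := by
        rw [hα, Subgroup.orderOf_coe, Subgroup.orderOf_coe]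
        exact ha
      show H770.ac (((a : H) : E.autGroup P) : MulAut P) z = z
      rw [← hα]
      have hαm : Mp E P (H770.ac α) := H770.mp_ac hPT hαE
      obtain ⟨M', L, hL, hPM, hLe, hLM⟩ := H753.mp_extend hPEr hαm (H770.im_ac α)
      have hq : ∀ q ∈ Q₁, ∃ q' ∈ Q₁, ∀ y ∈ P, H770.ac α (q * y * q⁻¹) = q' * H770.ac α y * q'⁻¹ := by
        intro q hq
        have hqn : q ∈ Subgroup.normalizer (P : Set Ω) := (hQN hq).2
        obtain ⟨δ, hδ⟩ := H802.exists_conjAut hqn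
        obtain ⟨q', hq', h1⟩ := (H802.mem_autInducedBy_iff _ _ _).1
          (hnorm δ ((H802.mem_autInducedBy_iff _ _ _).2 ⟨q, hq, hδ⟩))
        refine ⟨q', hq', fun y hy => ?_⟩
        have h2 := h1 (α ⟨y, hy⟩)
        have h3 : (α * δ * α⁻¹) (α ⟨y, hy⟩) = α (δ ⟨y, hy⟩) := by
          show α (δ (α⁻¹ (α ⟨y, hy⟩))) = _
          rw [MulAut.inv_apply_self]
        rw [h3] at h2
        have h4 : q * y * q⁻¹ ∈ P := (Subgroup.mem_normalizer_iff.1 hqn y).1 hy
        have h5 : δ ⟨y, hy⟩ = ⟨q * y * q⁻¹, h4⟩ := Subtype.ext (hδ ⟨y, hy⟩)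
        rw [H770.ac_apply _ h4, H770.ac_apply _ hy, ← h2, h5]
      have hQM : Q₁ ≤ M' := by
        intro q hq₁
        obtain ⟨q', hq', h1⟩ := hq q hq₁
        exact hLM q (hQT hq₁) (hQN hq₁).2 ⟨q', hQT hq', h1⟩
      have hLQ : ∀ q ∈ Q₁, L q ∈ Q₁ := by
        intro q hq₁
        obtain ⟨q', hq', h1⟩ := hq q hq₁
        have h2 : q'⁻¹ * L q ∈ P := by
          refine hTC.self hTS (T.mul_mem (T.inv_mem (hQT hq')) (hL.mem (hQM hq₁))) fun y hy => ?_
          obtain ⟨u, hu, rfl⟩ := ((H770.im_ac α) y).1 hy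
          have h3 := h1 u hu
          have h4 : q * u * q⁻¹ ∈ P := (Subgroup.mem_normalizer_iff.1 (hQN hq₁).2 u).1 hu
          rw [← hLe _ h4, hL.mul (mul_mem (hQM hq₁) (hPM hu)) (M'.inv_mem (hQM hq₁)),
            hL.mul (hQM hq₁) (hPM hu), hL.inv (hQM hq₁), hLe u hu] at h3
          calc H770.ac α u * (q'⁻¹ * L q)
              = q'⁻¹ * (q' * H770.ac α u * q'⁻¹) * L q := by group
            _ = q'⁻¹ * (L q * H770.ac α u * (L q)⁻¹) * L q := by rw [h3]
            _ = q'⁻¹ * L q * H770.ac α u := by group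
        have h3 := mul_mem hq' (hPQ h2)
        rwa [mul_inv_cancel_left] at h3
      have h1 : Fx F x P (H770.ac α) :=
        ((hgood L (hL.res hQM) hLQ).res hPQ).congr fun y hy => (hLe y hy).symm
      exact fix_of_two hS hE hPc hx hz hαE hcop h1 (hfix α hαE)
    · obtain ⟨t, ht, h1⟩ := hRt (a : H) ha
      show H770.ac (((a : H) : E.autGroup P) : MulAut P) z = z
      rw [H770.ac_apply _ hz, h1]
      show t * z * t⁻¹ = z
      rw [hzN t ht]
      group
  intro α hα hnorm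
  have h1 := hHmem α hα hnorm hα
  have h2 : (⟨⟨α, hα⟩, h1⟩ : H) ∈ M := by rw [hMtop]; trivial
  exact h2

/-- The intersection of a Sylow subgroup with a normal subgroup has index prime to `p` in it. -/
theorem not_dvd_relIndex {A : Type*} [Group A] [Finite A] [Fact p.Prime] (R : Sylow p A)
    (C : Subgroup A) [C.Normal] : ¬ p ∣ (R : Subgroup A).relIndex C := by
  have h1 : (R ⊓ C : Subgroup A).relIndex C * C.relIndex (R ⊔ C) = (R ⊓ C : Subgroup A).relIndex (R ⊔ C) :=
    Subgroup.relIndex_mul_relIndex _ _ _ inf_le_right le_sup_right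
  have h2 : (R ⊓ C : Subgroup A).relIndex R * (R : Subgroup A).relIndex (R ⊔ C) =
      (R ⊓ C : Subgroup A).relIndex (R ⊔ C) :=
    Subgroup.relIndex_mul_relIndex _ _ _ inf_le_left le_sup_left
  have h3 : (R ⊓ C : Subgroup A).relIndex R = C.relIndex (R ⊔ C) := by
    rw [Subgroup.inf_relIndex_left, Subgroup.relIndex_sup_right]
  rw [Subgroup.inf_relIndex_right] at h1
  have h4 : C.relIndex (R ⊔ C) ≠ 0 := by
    rw [Subgroup.relIndex]
    exact Subgroup.index_ne_zero_of_finite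
  have h5 : (R : Subgroup A).relIndex C = (R : Subgroup A).relIndex (R ⊔ C) := by
    apply Nat.eq_of_mul_eq_mul_left (Nat.pos_of_ne_zero h4)
    rw [mul_comm, h1, ← h2, h3]
  rw [h5]
  intro h6
  exact R.not_dvd_index (h6.trans (Subgroup.relIndex_dvd_index_of_le le_sup_left))

/-- **The central step**: `Q₁ = C_{N_T(P)}(Z(P))`. -/
theorem fx_of_central [Finite S] [Fact p.Prime] (hS : IsPGroup p S) (hE : E.IsNormalIn F p)
    {P : Subgroup Ω} (hPn : F.IsFullyNormalized P) (hPc : E.IsCentric P)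
    {x : Ω} (hx : x ∈ centralizerIn S T)
    (hgood : ∀ f, Mp E (normalizerIn T P ⊓ Subgroup.centralizer
        ((P ⊓ Subgroup.centralizer (P : Set Ω) : Subgroup Ω) : Set Ω)) f →
      (∀ y ∈ normalizerIn T P ⊓ Subgroup.centralizer
        ((P ⊓ Subgroup.centralizer (P : Set Ω) : Subgroup Ω) : Set Ω),
        f y ∈ normalizerIn T P ⊓ Subgroup.centralizer
          ((P ⊓ Subgroup.centralizer (P : Set Ω) : Subgroup Ω) : Set Ω)) →
      Fx F x (normalizerIn T P ⊓ Subgroup.centralizer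
        ((P ⊓ Subgroup.centralizer (P : Set Ω) : Subgroup Ω) : Set Ω)) f) :
    ∀ α ∈ E.autGroup P, Fx F x P (H770.ac α) := by
  have hF : F.IsSaturated p := hE.1.2.1
  have hEs : E.IsSaturated p := hE.1.1
  have hinv : E.IsInvariantIn F := hE.1.2.2
  have hT : F.StronglyClosed T := hinv.2.1
  have hTS : T ≤ S := hT.1
  have hfinT : Finite T := H802.finite_of_le hTS
  have hTp : IsPGroup p T := hS.to_le hTS
  have hPT : P ≤ T := hPc.1
  have hPS : P ≤ S := hPT.trans hTS
  have hfinP : Finite P := H802.finite_of_le hPS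
  have hPE : E.IsFullyNormalized P := H755.isFullyNormalized_sub hS hF hinv.1 hT hPT hPn
  have hPEa := H802.isFullyAutomized_of_isFullyNormalized hTp hEs hPE
  obtain ⟨R, hR⟩ := hPEa.2
  have hfinMP : Finite (MulAut P) := H758.finite_mulAut P
  have hPN : P ≤ normalizerIn T P := H802.le_normalizerIn hPT
  obtain ⟨Z, hZ⟩ : ∃ Z : Subgroup Ω, Z = P ⊓ Subgroup.centralizer (P : Set Ω) := ⟨_, rfl⟩
  obtain ⟨Q₁, hQ₁⟩ : ∃ Q₁, Q₁ = normalizerIn T P ⊓ Subgroup.centralizer (Z : Set Ω) := ⟨_, rfl⟩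
  rw [← hZ, ← hQ₁] at hgood
  have hPQ : P ≤ Q₁ := by
    rw [hQ₁]
    refine le_inf hPN fun y hy => Subgroup.mem_centralizer_iff.2 fun u hu => ?_
    rw [hZ] at hu
    exact (Subgroup.mem_centralizer_iff.1 hu.2 y hy).symm
  have hQN : Q₁ ≤ normalizerIn T P := by rw [hQ₁]; exact inf_le_left
  have hZn : ∀ t ∈ Subgroup.normalizer (P : Set Ω), ∀ u ∈ Z, t * u * t⁻¹ ∈ Z := by
    intro t ht u hu
    rw [hZ] at hu ⊢
    refine ⟨(Subgroup.mem_normalizer_iff.1 ht u).1 hu.1, Subgroup.mem_centralizer_iff.2 fun y hy => ?_⟩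
    have h1 : t⁻¹ * y * t ∈ P := by
      have := (Subgroup.mem_normalizer_iff.1 (Subgroup.inv_mem _ ht) y).1 hy
      rwa [inv_inv] at this
    have h2 := Subgroup.mem_centralizer_iff.1 hu.2 _ h1
    calc y * (t * u * t⁻¹) = t * ((t⁻¹ * y * t) * u) * t⁻¹ := by group
      _ = t * (u * (t⁻¹ * y * t)) * t⁻¹ := by rw [h2]
      _ = t * u * t⁻¹ * y := by group
  have hQn : normalizerIn T P ≤ Subgroup.normalizer (Q₁ : Set Ω) := by
    intro t ht
    have hQS : Q₁ ≤ S := (hQN.trans inf_le_left).trans hTS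
    have hfinS : Finite S := inferInstance
    refine H802.mem_normalizer_of_conj_mem hQS fun q hq => ?_
    rw [hQ₁] at hq ⊢
    refine ⟨mul_mem (mul_mem ht hq.1) ((normalizerIn T P).inv_mem ht),
      Subgroup.mem_centralizer_iff.2 fun u hu => ?_⟩
    have h1 : t⁻¹ * u * t ∈ Z := by
      have := hZn t⁻¹ (Subgroup.inv_mem _ ht.2) u hu
      rwa [inv_inv] at this
    have h2 := Subgroup.mem_centralizer_iff.1 hq.2 _ h1
    calc u * (t * q * t⁻¹) = t * ((t⁻¹ * u * t) * q) * t⁻¹ := by group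
      _ = t * (q * (t⁻¹ * u * t)) * t⁻¹ := by rw [h2]
      _ = t * q * t⁻¹ * u := by group
  have hxN : x ∈ centralizerIn S (normalizerIn T P) := centralizerIn_mono inf_le_left hx
  have hxP : x ∈ centralizerIn S P := centralizerIn_mono hPT hx
  obtain ⟨z, hz, hzN, hfix₀⟩ := exists_fix hS hE hPn hPc hxN
  have hxz : x * z ∈ P ⊔ centralizerIn S P :=
    mul_mem ((le_sup_right : centralizerIn S P ≤ _) hxP) ((le_sup_left : P ≤ _) hz)
  have hfix : ∀ α ∈ E.autGroup P, Fx F (x * z) P (H770.ac α) := by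
    intro α hα
    obtain ⟨g, hg, h1, h2, -⟩ := hfix₀ α hα
    refine ⟨g, hg.res (sup_le le_sup_left (by rw [Subgroup.zpowers_le]; exact hxz)),
      fun y hy => by rw [h1 y hy, H770.ac_apply _ hy], h2⟩
  have hzZ : z ∈ Z := by
    rw [hZ]
    exact ⟨hz, Subgroup.mem_centralizer_iff.2 fun y hy => hzN y (hPN hy)⟩
  have hmid := fixed_of_normalizes hS hE hPn hPc hPQ hQN hQn hxP hz hzN hgood hfix
  -- the subgroup acting trivially on `Z`
  have hacZ : ∀ (a : MulAut P) {u : Ω}, u ∈ Z → H770.ac a u ∈ Z := by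
    intro a u hu
    rw [hZ] at hu ⊢
    refine ⟨H770.ac_mem a hu.1, Subgroup.mem_centralizer_iff.2 fun y hy => ?_⟩
    obtain ⟨v, hv, rfl⟩ := ((H770.im_ac a) y).1 hy
    rw [H770.ac_apply _ hu.1, H770.ac_apply _ hv]
    have h1 : (⟨v, hv⟩ : P) * ⟨u, hu.1⟩ = ⟨u, hu.1⟩ * ⟨v, hv⟩ :=
      Subtype.ext (Subgroup.mem_centralizer_iff.1 hu.2 v hv)
    have h2 : a ⟨v, hv⟩ * a ⟨u, hu.1⟩ = a ⟨u, hu.1⟩ * a ⟨v, hv⟩ := by
      rw [← map_mul, h1, map_mul]
    exact congrArg Subtype.val h2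
  let C : Subgroup (E.autGroup P) :=
    { carrier := {a | ∀ u ∈ Z, H770.ac (a : MulAut P) u = u}
      one_mem' := fun u hu => H770.ac_one (by rw [hZ] at hu; exact hu.1)
      mul_mem' := by
        intro a b ha hb u hu
        have huP : u ∈ P := by rw [hZ] at hu; exact hu.1
        show H770.ac ((a : MulAut P) * (b : MulAut P)) u = u
        rw [H770.ac_mul _ _ huP, hb u hu, ha u hu]
      inv_mem' := by
        intro a ha u hu
        have huP : u ∈ P := by rw [hZ] at hu; exact hu.1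
        have h1 := H770.ac_inv_ac (a : MulAut P) huP
        rw [ha u hu] at h1
        exact h1 }
  have hCn : C.Normal := by
    refine ⟨fun a ha g u hu => ?_⟩
    have huP : u ∈ P := by rw [hZ] at hu; exact hu.1
    have h1 : H770.ac (g : MulAut P)⁻¹ u ∈ Z := hacZ _ hu
    have h1P : H770.ac (g : MulAut P)⁻¹ u ∈ P := H770.ac_mem _ huP
    have h2 : H770.ac ((g : MulAut P) * (a : MulAut P) * (g : MulAut P)⁻¹) u = u := by
      rw [H770.ac_mul _ _ huP, H770.ac_mul _ _ h1P, ha _ h1, H770.ac_ac_inv _ huP]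
    exact h2
  have hRC : ¬ p ∣ ((R : Subgroup (E.autGroup P)).subgroupOf C).index := not_dvd_relIndex R C
  have hRCp : IsPGroup p ((R : Subgroup (E.autGroup P)).subgroupOf C) :=
    (R.2.comap_of_injective C.subtype C.subtype_injective)
  let RC : Sylow p C := hRCp.toSylow hRC
  have hfrat := Sylow.normalizer_sup_eq_top RC
  -- `z` is fixed
  let M : Subgroup (E.autGroup P) :=
    { carrier := {a | H770.ac (a : MulAut P) z = z}
      one_mem' := H770.ac_one hz
      mul_mem' := by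
        intro a b ha hb
        have h1 : H770.ac (b : MulAut P) z = z := hb
        have h2 : H770.ac (a : MulAut P) z = z := ha
        show H770.ac ((a : MulAut P) * (b : MulAut P)) z = z
        rw [H770.ac_mul _ _ hz, h1, h2]
      inv_mem' := by
        intro a ha
        have h2 : H770.ac (a : MulAut P) z = z := ha
        have h3 := H770.ac_inv_ac (a : MulAut P) hz
        rw [h2] at h3
        exact h3 }
  have hMtop : M = ⊤ := by
    rw [eq_top_iff, ← hfrat]
    refine sup_le (fun a ha => ?_) (fun a ha => ha z hzZ)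
    refine hmid a a.2 fun δ hδ => ?_
    obtain ⟨q, hq, hδq⟩ := (H802.mem_autInducedBy_iff _ _ _).1 hδ
    have hqN := hQN hq
    have hδE : δ ∈ E.autGroup P := H802.autInducedBy_le_autGroup E hPT
      ((H802.mem_autInducedBy_iff _ _ _).2 ⟨q, hqN.1, hδq⟩)
    have hδC : (⟨δ, hδE⟩ : E.autGroup P) ∈ C := by
      intro u hu
      have huP : u ∈ P := by rw [hZ] at hu; exact hu.1
      rw [H770.ac_apply _ huP]
      show ((δ ⟨u, huP⟩ : P) : Ω) = u
      rw [hδq]
      have h1 : u * q = q * u := by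
        rw [hQ₁] at hq
        exact Subgroup.mem_centralizer_iff.1 hq.2 u hu
      show q * u * q⁻¹ = u
      rw [← h1]
      group
    have hδR : (⟨δ, hδE⟩ : E.autGroup P) ∈ (R : Subgroup (E.autGroup P)) := by
      rw [hR]
      exact (H802.mem_autInducedBy_iff _ _ _).2 ⟨q, hqN.1, hδq⟩
    have hδRC : (⟨δ, hδE⟩ : E.autGroup P) ∈ (RC : Subgroup C).map C.subtype :=
      ⟨⟨⟨δ, hδE⟩, hδC⟩, hδR, rfl⟩
    have h1 := (Subgroup.mem_normalizer_iff.1 ha ⟨δ, hδE⟩).1 hδRC
    obtain ⟨⟨c, hcC⟩, hcR, hc⟩ := h1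
    have hcR' : c ∈ (R : Subgroup (E.autGroup P)) := hcR
    have hc' : c = a * ⟨δ, hδE⟩ * a⁻¹ := hc
    rw [hR] at hcR'
    obtain ⟨t, ht, h2⟩ := (H802.mem_autInducedBy_iff T P _).1 hcR'
    have h3 : (c : MulAut P) = (a : MulAut P) * δ * (a : MulAut P)⁻¹ := by rw [hc']; rfl
    rw [← h3]
    refine (H802.mem_autInducedBy_iff _ _ _).2 ⟨t, ?_, h2⟩
    rw [hQ₁]
    refine ⟨⟨ht, H802.mem_normalizer_of_aut h2⟩, Subgroup.mem_centralizer_iff.2 fun u hu => ?_⟩
    have huP : u ∈ P := by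
      have hu' : u ∈ Z := hu
      rw [hZ] at hu'; exact hu'.1
    have h4 := hcC u hu
    rw [H770.ac_apply _ huP] at h4
    have h5 : (((c : MulAut P) ⟨u, huP⟩ : P) : Ω) = t * u * t⁻¹ := h2 ⟨u, huP⟩
    have h6 : u = t * u * t⁻¹ := by rw [← h5, h4]
    calc u * t = t * u * t⁻¹ * t := by rw [← h6]
      _ = t * u := by group
  intro α hα
  have h1 : (⟨α, hα⟩ : E.autGroup P) ∈ M := by rw [hMtop]; trivial
  exact fx_of_fix hz h1 (hfix α hα)

end general

end Cfsg.Agent.H769
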