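import Cfsg.Agent.H758.NormMain
import Cfsg.Agent.H756.TCen
import Cfsg.Agent.H753.CentStrong
import Cfsg.Agent.H754.MpSat
import Cfsg.Agent.H770.NSys
import Cfsg.Agent.H759.CentNormal

/-!
# Automorphisms of `N C_S(N)` trivial on `N` and modulo `N` (helper769)
-/

set_option autoImplicit false

namespace Cfsg.Agent.H769

open Cfsg Cfsg.FusionSystem Cfsg.Agent.H752

variable {Ω : Type*} [Group Ω] {S T : Subgroup Ω} {F : FusionSystem S} {p : ℕ}

/-- A map of the system on `N C_S(N)`, for `N` fully centralized, which is trivial on `N` and modulo `N`, is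
conjugation by an element of `C_S(N)`. -/
theorem conj_of_triv [Finite S] [Fact p.Prime] (hS : IsPGroup p S) (hF : F.IsSaturated p)
    {N : Subgroup Ω} (hN : F.IsFullyCentralized N) {k : Ω → Ω}
    (hk : Mp F (N ⊔ centralizerIn S N) k) (h1 : ∀ x ∈ N, k x = x)
    (h2 : ∀ c ∈ centralizerIn S N, c⁻¹ * k c ∈ N) :
    ∃ s ∈ centralizerIn S N, ∀ x ∈ N ⊔ centralizerIn S N, k x = s * x * s⁻¹ := by
  obtain ⟨C, hC⟩ := H802.exists_centralizerSystem F hN.1
  have hCs := H802.centralizerSystem_isSaturated hS hF hN hC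
  have hVS : centralizerIn S N ≤ S := inf_le_left
  have hNm : N ≤ N ⊔ centralizerIn S N := le_sup_left
  have hVm : centralizerIn S N ≤ N ⊔ centralizerIn S N := le_sup_right
  have hkV : ∀ c ∈ centralizerIn S N, k c ∈ centralizerIn S N := by
    intro c hc
    refine ⟨hk.mem (hVm hc), Subgroup.mem_centralizer_iff.2 fun x hx => ?_⟩
    have h3 := Subgroup.mem_centralizer_iff.1 hc.2 x hx
    calc x * k c = k x * k c := by rw [h1 x hx]
      _ = k (x * c) := (hk.mul (hNm hx) (hVm hc)).symm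
      _ = k (c * x) := by rw [h3]
      _ = k c * x := by rw [hk.mul (hVm hc) (hNm hx), h1 x hx]
  have hkC : Mp C (centralizerIn S N) k := by
    rw [H759.mp_centralizer_iff hC]
    refine ⟨le_rfl, hkV, k, ?_, fun _ _ => rfl, h1⟩
    rw [sup_comm]
    exact hk
  have hfin : Finite (centralizerIn S N) := H802.finite_of_le hVS
  obtain ⟨κ, hκ, hκe⟩ := hkC.exists_aut hkV
  have hTc : C.StronglyClosed (N ⊓ centralizerIn S N) := by
    refine stronglyClosed_of_mp inf_le_right fun P f hf hP x hx => ?_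
    obtain ⟨-, -, g, -, h3, h4⟩ := (H759.mp_centralizer_iff hC).1 hf
    rw [← h3 x hx, h4 x (hP hx).1]
    exact hP hx
  have hVa : C.IsFullyAutomized p (centralizerIn S N) :=
    (automized_receptive_of_stronglyClosed hCs
      (stronglyClosed_of_mp le_rfl fun P f hf _ x hx => hf.mem hx)).1
  obtain ⟨s, hs, hs1⟩ := H753.exists_conj_of_trivial (hS.to_le hVS) hTc hVa hκ
    (fun v hv => Subtype.ext (by rw [← hκe v v.2]; exact h1 v hv.1))
    (fun v => by
      rw [← hκe v v.2]
      exact ⟨h2 v v.2, (centralizerIn S N).mul_mem ((centralizerIn S N).inv_mem v.2) (hkV v v.2)⟩)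
  refine ⟨s, hs, ?_⟩
  refine H754.mp_sup_eq hk (mp_conj F (sup_le hN.1 hVS) (hVS hs)) (fun x hx => ?_) (fun x hx => ?_)
  · rw [h1 x hx, ← Subgroup.mem_centralizer_iff.1 hs.2 x hx]
    group
  · have h3 := hs1 ⟨x, hx⟩
    rw [hκe x hx]
    exact h3

end Cfsg.Agent.H769
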