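import Cfsg.Agent.H769.NsTh

/-!
# The weight of a subgroup (helper769)

`dA P` is the largest order of an abelian subgroup of `P`; `v` orders by `dA P` and after that by `|J(P)|`, and `w`
orders by `v` and after that by `|P|`.
-/

set_option autoImplicit false

namespace Cfsg.Agent.H769

open Cfsg Cfsg.FusionSystem Cfsg.Agent.H752 Cfsg.Agent.PLocal.ThompsonJA

section

variable {G : Type*} [Group G]

/-- The largest order of an abelian subgroup. -/
noncomputable def dA (P : Subgroup G) : ℕ :=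
  sSup {n | ∃ A : Subgroup G, A ≤ P ∧ IsMulCommutative A ∧ Nat.card A = n}

theorem dA_bdd (P : Subgroup G) [Finite P] :
    BddAbove {n | ∃ A : Subgroup G, A ≤ P ∧ IsMulCommutative A ∧ Nat.card A = n} :=
  ⟨Nat.card P, by rintro _ ⟨A, hA, -, rfl⟩; exact Subgroup.card_le_of_le hA⟩

theorem card_le_dA {P A : Subgroup G} [Finite P] (hA : A ≤ P) (hc : IsMulCommutative A) :
    Nat.card A ≤ dA P := le_csSup (dA_bdd P) ⟨A, hA, hc, rfl⟩

theorem exists_dA (P : Subgroup G) [Finite P] :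
    ∃ A : Subgroup G, A ≤ P ∧ IsMulCommutative A ∧ Nat.card A = dA P :=
  Nat.sSup_mem (s := {n | ∃ A : Subgroup G, A ≤ P ∧ IsMulCommutative A ∧ Nat.card A = n})
    ⟨_, ⊥, bot_le, (isMulCommutative_iff _).2 (by
      intro x hx y hy
      rw [Subgroup.mem_bot] at hx hy
      rw [hx, hy]), rfl⟩ (dA_bdd P)

theorem mem_maxAbelianIn_iff {P A : Subgroup G} [Finite P] :
    A ∈ maxAbelianIn P ↔ A ≤ P ∧ IsMulCommutative A ∧ Nat.card A = dA P := by
  constructor
  · rintro ⟨h1, h2, h3⟩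
    obtain ⟨B, hB1, hB2, hB3⟩ := exists_dA P
    exact ⟨h1, h2, le_antisymm (card_le_dA h1 h2) (hB3 ▸ h3 B hB1 hB2)⟩
  · rintro ⟨h1, h2, h3⟩
    exact ⟨h1, h2, fun B hB hBc => h3 ▸ card_le_dA hB hBc⟩

theorem exists_mem_maxAbelianIn (P : Subgroup G) [Finite P] : ∃ A, A ∈ maxAbelianIn P := by
  obtain ⟨A, hA⟩ := exists_dA P
  exact ⟨A, mem_maxAbelianIn_iff.2 hA⟩

theorem dA_mono {P Q : Subgroup G} [Finite Q] (h : P ≤ Q) : dA P ≤ dA Q := by
  have hfP : Finite P := H802.finite_of_le h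
  obtain ⟨A, hA1, hA2, hA3⟩ := exists_dA P
  rw [← hA3]
  exact card_le_dA (hA1.trans h) hA2

theorem thompson_mono {P Q : Subgroup G} [Finite Q] (h : P ≤ Q) (hd : dA P = dA Q) :
    thompsonSubgroupAOf P ≤ thompsonSubgroupAOf Q := by
  have hfP : Finite P := H802.finite_of_le h
  rw [thompsonSubgroupAOf_eq_sSup P]
  refine sSup_le fun A hA => ?_
  obtain ⟨h1, h2, h3⟩ := mem_maxAbelianIn_iff.1 hA
  exact le_thompsonSubgroupAOf (mem_maxAbelianIn_iff.2 ⟨h1.trans h, h2, h3.trans hd⟩)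

/-- A subgroup centralizing an abelian subgroup of largest order lies in it. -/
theorem inf_centralizer_le {P A : Subgroup G} [Finite P] (hA : A ∈ maxAbelianIn P) :
    P ⊓ Subgroup.centralizer (A : Set G) ≤ A := by
  obtain ⟨hAP, hAc, hAm⟩ := hA
  intro x hx
  have hxA : ∀ a ∈ A, a * x = x * a := Subgroup.mem_centralizer_iff.mp hx.2
  have hAc' := (isMulCommutative_iff A).mp hAc
  obtain ⟨B, hB⟩ : ∃ B, B = A ⊔ Subgroup.zpowers x := ⟨_, rfl⟩
  have hBP : B ≤ P := by rw [hB]; exact sup_le hAP (by rw [Subgroup.zpowers_le]; exact hx.1)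
  have hfB : Finite B := H802.finite_of_le hBP
  have hBc : IsMulCommutative B := by
    rw [PLocal.ThompsonJA.isMulCommutative_iff]
    have h1 : B ≤ Subgroup.centralizer (A : Set G) := by
      rw [hB]
      refine sup_le ?_ ?_
      · intro a ha
        exact Subgroup.mem_centralizer_iff.mpr fun b hb => hAc' b hb a ha
      · rw [Subgroup.zpowers_le]; exact hx.2
    have h2 : B ≤ Subgroup.centralizer (B : Set G) := by
      rw [Subgroup.le_centralizer_iff]
      nth_rw 1 [hB]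
      refine sup_le (Subgroup.le_centralizer_iff.mp h1) ?_
      rw [Subgroup.zpowers_le, ← SetLike.mem_coe]
      refine Subgroup.mem_centralizer_iff.mpr ?_
      intro b hb
      have h3 : B ≤ Subgroup.centralizer ({x} : Set G) := by
        rw [hB]
        refine sup_le ?_ ?_
        · intro a ha
          rw [Subgroup.mem_centralizer_singleton_iff]
          exact (hxA a ha)
        · rw [Subgroup.zpowers_le, Subgroup.mem_centralizer_singleton_iff]
      exact (Subgroup.mem_centralizer_singleton_iff.mp (h3 hb))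
    intro y hy z hz
    exact (Subgroup.mem_centralizer_iff.mp (h2 hy) z hz).symm
  have hcard := hAm B hBP hBc
  have hAB : A = B := Subgroup.eq_of_le_of_card_ge (by rw [hB]; exact le_sup_left) hcard
  rw [hAB, hB]
  exact (le_sup_right : Subgroup.zpowers x ≤ _) (Subgroup.mem_zpowers x)

/-- `C_P(J(P)) ≤ J(P)`. -/
theorem inf_centralizer_thompson_le (P : Subgroup G) [Finite P] :
    P ⊓ Subgroup.centralizer (thompsonSubgroupAOf P : Set G) ≤ thompsonSubgroupAOf P := by
  obtain ⟨A, hA⟩ := exists_mem_maxAbelianIn P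
  refine le_trans ?_ ((inf_centralizer_le hA).trans (le_thompsonSubgroupAOf hA))
  exact inf_le_inf_left _ (Subgroup.centralizer_le (le_thompsonSubgroupAOf hA))

/-- If `J(P) ≤ Q ≤ P` then `dA Q = dA P`. -/
theorem dA_eq_of_between {P Q : Subgroup G} [Finite P] (h1 : thompsonSubgroupAOf P ≤ Q)
    (h2 : Q ≤ P) : dA Q = dA P := by
  have hfQ : Finite Q := H802.finite_of_le h2
  refine le_antisymm (dA_mono h2) ?_
  obtain ⟨A, hA⟩ := exists_mem_maxAbelianIn P
  rw [← (mem_maxAbelianIn_iff.1 hA).2.2]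
  exact card_le_dA ((le_thompsonSubgroupAOf hA).trans h1) hA.2.1

/-- If `J(P) ≤ Q ≤ P` then `J(Q) = J(P)`. -/
theorem thompson_eq_of_between {P Q : Subgroup G} [Finite P] (h1 : thompsonSubgroupAOf P ≤ Q)
    (h2 : Q ≤ P) : thompsonSubgroupAOf Q = thompsonSubgroupAOf P := by
  have hfQ : Finite Q := H802.finite_of_le h2
  refine le_antisymm (thompson_mono h2 (dA_eq_of_between h1 h2)) ?_
  rw [thompsonSubgroupAOf_eq_sSup P]
  refine sSup_le fun A hA => le_thompsonSubgroupAOf (mem_maxAbelianIn_iff.2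
    ⟨(le_thompsonSubgroupAOf hA).trans h1, hA.2.1, ?_⟩)
  rw [dA_eq_of_between h1 h2]
  exact (mem_maxAbelianIn_iff.1 hA).2.2

theorem thompson_thompson (P : Subgroup G) [Finite P] :
    thompsonSubgroupAOf (thompsonSubgroupAOf P) = thompsonSubgroupAOf P :=
  thompson_eq_of_between le_rfl (thompsonSubgroupAOf_le P)

/-- The first weight. -/
noncomputable def vW (N : ℕ) (P : Subgroup G) : ℕ := dA P * (N + 1) + Nat.card (thompsonSubgroupAOf P)

/-- The second weight. -/
noncomputable def wW (N : ℕ) (P : Subgroup G) : ℕ := vW N P * (N + 1) + Nat.card P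

theorem vW_mono {N : ℕ} {P Q : Subgroup G} [Finite Q] (h : P ≤ Q) (hN : Nat.card Q ≤ N) :
    vW N P ≤ vW N Q := by
  have hfP : Finite P := H802.finite_of_le h
  have h1 : Nat.card (thompsonSubgroupAOf P) ≤ N :=
    (Subgroup.card_le_of_le ((thompsonSubgroupAOf_le P).trans h)).trans hN
  rcases (dA_mono h).eq_or_lt with h2 | h2
  · have hfJ : Finite (thompsonSubgroupAOf Q) := H802.finite_of_le (thompsonSubgroupAOf_le Q)
    have h3 := Subgroup.card_le_of_le (thompson_mono h h2)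
    rw [vW, vW, h2]
    omega
  · rw [vW, vW]
    nlinarith [Nat.mul_le_mul_right (N + 1) (Nat.succ_le_of_lt h2)]

theorem thompson_eq_of_vW_eq {N : ℕ} {P Q : Subgroup G} [Finite Q] (h : P ≤ Q)
    (hN : Nat.card Q ≤ N) (hv : vW N P = vW N Q) :
    thompsonSubgroupAOf P = thompsonSubgroupAOf Q := by
  have hfP : Finite P := H802.finite_of_le h
  have h1 : Nat.card (thompsonSubgroupAOf P) ≤ N :=
    (Subgroup.card_le_of_le ((thompsonSubgroupAOf_le P).trans h)).trans hN
  have hfJ : Finite (thompsonSubgroupAOf Q) := H802.finite_of_le (thompsonSubgroupAOf_le Q)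
  rcases (dA_mono h).eq_or_lt with h2 | h2
  · refine Subgroup.eq_of_le_of_card_ge (thompson_mono h h2) ?_
    rw [vW, vW, h2] at hv
    omega
  · exfalso
    rw [vW, vW] at hv
    nlinarith [Nat.mul_le_mul_right (N + 1) (Nat.succ_le_of_lt h2)]

theorem wW_lt_of_vW_lt {N : ℕ} {P Q : Subgroup G} (hN : Nat.card P ≤ N) (h : vW N P < vW N Q) :
    wW N P < wW N Q := by
  rw [wW, wW]
  nlinarith [Nat.mul_le_mul_right (N + 1) (Nat.succ_le_of_lt h)]

theorem wW_lt {N : ℕ} {P Q : Subgroup G} [Finite Q] (h : P < Q) (hN : Nat.card Q ≤ N) :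
    wW N P < wW N Q := by
  have h1 := vW_mono h.le hN
  have h2 : Nat.card P < Nat.card Q := by
    refine lt_of_le_of_ne (Subgroup.card_le_of_le h.le) fun h3 => ?_
    exact h.ne (Subgroup.eq_of_le_of_card_ge h.le h3.ge)
  rw [wW, wW]
  nlinarith [Nat.mul_le_mul_right (N + 1) h1]

theorem vW_eq_of_between {N : ℕ} {P Q : Subgroup G} [Finite P] (h1 : thompsonSubgroupAOf P ≤ Q)
    (h2 : Q ≤ P) : vW N Q = vW N P := by
  rw [vW, vW, dA_eq_of_between h1 h2, thompson_eq_of_between h1 h2]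

theorem vW_thompson {N : ℕ} (P : Subgroup G) [Finite P] :
    vW N (thompsonSubgroupAOf P) = vW N P :=
  vW_eq_of_between le_rfl (thompsonSubgroupAOf_le P)

end

section

variable {Ω : Type*} [Group Ω] {S : Subgroup Ω} {F : FusionSystem S}

theorem dA_le_of_im [Finite S] {P P' : Subgroup Ω} {f : Ω → Ω} (hf : Mp F P f)
    (hI : H770.Im f P P') : dA P ≤ dA P' := by
  have hfP : Finite P := H802.finite_of_le hf.le
  have hfP' : Finite P' := H802.finite_of_le (H770.Mp.im_le hf hI)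
  obtain ⟨A, hA1, hA2, hA3⟩ := exists_dA P
  obtain ⟨A', hA', -, hA'c⟩ := H770.Mp.exists_im hf hA1
  rw [← hA3, ← hA'c]
  refine card_le_dA (fun y hy => ?_) ((isMulCommutative_iff _).2 fun y hy z hz => ?_)
  · obtain ⟨x, hx, rfl⟩ := (hA' y).1 hy
    exact hI.apply (hA1 hx)
  · obtain ⟨x, hx, rfl⟩ := (hA' y).1 hy
    obtain ⟨u, hu, rfl⟩ := (hA' z).1 hz
    rw [← hf.mul (hA1 hx) (hA1 hu), ← hf.mul (hA1 hu) (hA1 hx),
      (isMulCommutative_iff A).1 hA2 x hx u hu]

theorem dA_of_im [Finite S] {P P' : Subgroup Ω} {f : Ω → Ω} (hf : Mp F P f)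
    (hI : H770.Im f P P') : dA P' = dA P := by
  refine le_antisymm ?_ (dA_le_of_im hf hI)
  obtain ⟨b, hb, hb1, hb2⟩ := hf.exists_symm le_rfl hI
  exact dA_le_of_im hb (hI.symm hb1)

theorem im_thompson_le [Finite S] {P P' : Subgroup Ω} {f : Ω → Ω} (hf : Mp F P f)
    (hI : H770.Im f P P') : ∀ y ∈ thompsonSubgroupAOf P, f y ∈ thompsonSubgroupAOf P' := by
  have hfP : Finite P := H802.finite_of_le hf.le
  have hfP' : Finite P' := H802.finite_of_le (H770.Mp.im_le hf hI)
  obtain ⟨φ, hφ, hφf⟩ := hf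
  have hf' : Mp F P f := ⟨φ, hφ, hφf⟩
  -- the preimage of `J(P')`
  let W : Subgroup Ω := ((thompsonSubgroupAOf P').comap φ).map P.subtype
  have hW : thompsonSubgroupAOf P ≤ W := by
    rw [thompsonSubgroupAOf_eq_sSup P]
    refine sSup_le fun A hA => ?_
    obtain ⟨A', hA', -, hA'c⟩ := H770.Mp.exists_im hf' hA.1
    have h1 : A' ∈ maxAbelianIn P' := by
      refine mem_maxAbelianIn_iff.2 ⟨fun y hy => ?_, (isMulCommutative_iff _).2 fun y hy z hz => ?_, ?_⟩
      · obtain ⟨x, hx, rfl⟩ := (hA' y).1 hy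
        exact hI.apply (hA.1 hx)
      · obtain ⟨x, hx, rfl⟩ := (hA' y).1 hy
        obtain ⟨u, hu, rfl⟩ := (hA' z).1 hz
        rw [← hf'.mul (hA.1 hx) (hA.1 hu), ← hf'.mul (hA.1 hu) (hA.1 hx),
          (isMulCommutative_iff A).1 hA.2.1 x hx u hu]
      · rw [hA'c, dA_of_im hf' hI]
        exact (mem_maxAbelianIn_iff.1 hA).2.2
    intro x hx
    refine ⟨⟨x, hA.1 hx⟩, ?_, rfl⟩
    show φ ⟨x, hA.1 hx⟩ ∈ thompsonSubgroupAOf P'
    rw [hφf x (hA.1 hx)]
    exact le_thompsonSubgroupAOf h1 (hA'.apply hx)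
  intro y hy
  obtain ⟨⟨u, hu⟩, h1, rfl⟩ := hW hy
  have h2 : φ ⟨u, hu⟩ ∈ thompsonSubgroupAOf P' := h1
  rw [hφf u hu] at h2
  exact h2

/-- `J` is preserved by the maps of a fusion system. -/
theorem im_thompson [Finite S] {P P' : Subgroup Ω} {f : Ω → Ω} (hf : Mp F P f)
    (hI : H770.Im f P P') : H770.Im f (thompsonSubgroupAOf P) (thompsonSubgroupAOf P') := by
  intro y
  constructor
  · intro hy
    obtain ⟨b, hb, hb1, hb2⟩ := hf.exists_symm le_rfl hI
    have h1 := im_thompson_le hb (hI.symm hb1) y hy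
    exact ⟨b y, h1, (hb2 y (thompsonSubgroupAOf_le P' hy)).2⟩
  · rintro ⟨x, hx, rfl⟩
    exact im_thompson_le hf hI x hx

theorem vW_of_im [Finite S] {N : ℕ} {P P' : Subgroup Ω} {f : Ω → Ω} (hf : Mp F P f)
    (hI : H770.Im f P P') : vW N P' = vW N P := by
  rw [vW, vW, dA_of_im hf hI,
    H770.Mp.im_card (hf.res (thompsonSubgroupAOf_le P)) (im_thompson hf hI)]

theorem wW_of_im [Finite S] {N : ℕ} {P P' : Subgroup Ω} {f : Ω → Ω} (hf : Mp F P f)
    (hI : H770.Im f P P') : wW N P' = wW N P := by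
  rw [wW, wW, vW_of_im hf hI, H770.Mp.im_card hf hI]

end

end Cfsg.Agent.H769
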